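import Cfsg.Agent.H520.CcpCfg
import Cfsg.Agent.ClassicalGeometry.AutPSL.SylowU

/-!
# S4114: correlations normalising a Sylow subgroup of `PSL_n(F)` in the characteristic (helper272)

* `gr A σ` : the automorphism `s ↦ A (s^{-T})^σ A⁻¹` of `SL_n(F)`;
* `exists_upper` : if `lift (gr A σ)` normalises a Sylow `r`-subgroup, a conjugate `lift (gr A' σ)` maps the upper
  unitriangular matrices to upper unitriangular matrices;
* `anti` : then `A'` is anti-triangular;
* `swap_lem` : `CCP` on a section.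
-/

set_option autoImplicit false
set_option linter.unusedSectionVars false

namespace Cfsg.Agent.H272.Ccp

open Matrix Cfsg.Agent.H520
open Cfsg.Agent.ClassicalGeometry.AutPSL.Root Cfsg.Agent.ClassicalGeometry.AutPSL.Auto
open Cfsg.Agent.ClassicalGeometry.AutPSL.SylowU

section Section

universe u

variable {G : Type u} [Group G]

/-- `CCP` on the section `M / N`. -/
theorem swap_lem [Finite G] {α : MulAut G} (h : CCP α) (M N : Subgroup G) (hM : ∀ m ∈ M, α m ∈ M)
    (hN : ∀ m ∈ N, α m ∈ N) (hn : ∀ m ∈ M, ∀ n ∈ N, m * n * m⁻¹ ∈ N) {g : G} (hg : g ∈ M)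
    (hx : (g⁻¹ * α g)⁻¹ * α (g⁻¹ * α g) ∈ N) : g⁻¹ * α g ∈ N := by
  let β := resA α M hM
  let N' : Subgroup ↥M := N.subgroupOf M
  have hN'n : N'.Normal := ⟨fun n hn' m => by
    rw [Subgroup.mem_subgroupOf] at hn' ⊢
    exact hn _ m.2 _ hn'⟩
  have hN' : ∀ m ∈ N', β m ∈ N' := by
    intro m hm
    rw [Subgroup.mem_subgroupOf] at hm ⊢
    exact hN _ hm
  have h1 := (h.res M hM).quo N' hN'
  let g' : ↥M ⧸ N' := QuotientGroup.mk ⟨g, hg⟩
  have h2 : quoA β N' hN' g' = g' := by
    apply h1.eq_of_fix (k := 1)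
    rw [one_mul, inv_one, mul_one]
    have h3 : g'⁻¹ * quoA β N' hN' g' = QuotientGroup.mk ((⟨g, hg⟩ : ↥M)⁻¹ * β ⟨g, hg⟩) := by
      rw [quoA_mk]
      rfl
    rw [h3, quoA_mk]
    exact (QuotientGroup.eq.2 (Subgroup.mem_subgroupOf.2 hx)).symm
  rw [quoA_mk] at h2
  exact Subgroup.mem_subgroupOf.1 (QuotientGroup.eq.1 h2.symm)

end Section

variable {F : Type} [Field F] {n : ℕ}

/-- `s ↦ A (s^{-T})^σ A⁻¹` -/
def gr (A : GL (Fin n) F) (σ : F ≃+* F) : MulAut (Matrix.SpecialLinearGroup (Fin n) F) := cj A * fld σ * itr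

theorem coe_gr (A : GL (Fin n) F) (σ : F ≃+* F) (s : Matrix.SpecialLinearGroup (Fin n) F) :
    (gr A σ s : Matrix (Fin n) (Fin n) F) = (A : Matrix (Fin n) (Fin n) F) *
      (((s⁻¹ : Matrix.SpecialLinearGroup (Fin n) F) : Matrix (Fin n) (Fin n) F)ᵀ).map σ *
        ((A⁻¹ : GL (Fin n) F) : Matrix (Fin n) (Fin n) F) := rfl

theorem gr_rel (A : GL (Fin n) F) (σ : F ≃+* F) (s : Matrix.SpecialLinearGroup (Fin n) F) :
    (gr A σ s : Matrix (Fin n) (Fin n) F) * (A : Matrix (Fin n) (Fin n) F) = (A : Matrix (Fin n) (Fin n) F) *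
      (((s⁻¹ : Matrix.SpecialLinearGroup (Fin n) F) : Matrix (Fin n) (Fin n) F)ᵀ).map σ := by
  rw [coe_gr, mul_assoc, ← Units.val_mul, inv_mul_cancel, Units.val_one, mul_one]

theorem gr_eq_of_rel {A : GL (Fin n) F} {σ : F ≃+* F} {s t : Matrix.SpecialLinearGroup (Fin n) F}
    (h : (t : Matrix (Fin n) (Fin n) F) * (A : Matrix (Fin n) (Fin n) F) = (A : Matrix (Fin n) (Fin n) F) *
      (((s⁻¹ : Matrix.SpecialLinearGroup (Fin n) F) : Matrix (Fin n) (Fin n) F)ᵀ).map σ) : gr A σ s = t := by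
  apply Subtype.ext
  rw [← gr_rel] at h
  have h1 : ((A : Matrix (Fin n) (Fin n) F)) * ((A⁻¹ : GL (Fin n) F) : Matrix (Fin n) (Fin n) F) = 1 := by
    rw [← Units.val_mul, mul_inv_cancel, Units.val_one]
  calc (gr A σ s : Matrix (Fin n) (Fin n) F) = (gr A σ s : Matrix (Fin n) (Fin n) F) *
        ((A : Matrix (Fin n) (Fin n) F) * ((A⁻¹ : GL (Fin n) F) : Matrix (Fin n) (Fin n) F)) := by rw [h1, mul_one]
    _ = (t : Matrix (Fin n) (Fin n) F) *
        ((A : Matrix (Fin n) (Fin n) F) * ((A⁻¹ : GL (Fin n) F) : Matrix (Fin n) (Fin n) F)) := by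
        rw [← mul_assoc, ← h, mul_assoc]
    _ = t := by rw [h1, mul_one]

/-- the matrix of the conjugate correlation -/
def cA (g : Matrix.SpecialLinearGroup (Fin n) F) (A : GL (Fin n) F) (σ : F ≃+* F) : GL (Fin n) F :=
  Matrix.SpecialLinearGroup.toGL g * A * Matrix.SpecialLinearGroup.toGL (fld σ g.transpose)

theorem coe_cA (g : Matrix.SpecialLinearGroup (Fin n) F) (A : GL (Fin n) F) (σ : F ≃+* F) :
    (cA g A σ : Matrix (Fin n) (Fin n) F) = (g : Matrix (Fin n) (Fin n) F) * (A : Matrix (Fin n) (Fin n) F) *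
      ((g : Matrix (Fin n) (Fin n) F)ᵀ).map σ := rfl

theorem gr_conj (g s : Matrix.SpecialLinearGroup (Fin n) F) (A : GL (Fin n) F) (σ : F ≃+* F) :
    gr (cA g A σ) σ (g * s * g⁻¹) = g * gr A σ s * g⁻¹ := by
  apply gr_eq_of_rel
  have e1 : ((g⁻¹ : Matrix.SpecialLinearGroup (Fin n) F) : Matrix (Fin n) (Fin n) F) * (g : Matrix (Fin n) (Fin n) F) = 1 := by
    rw [← Matrix.SpecialLinearGroup.coe_mul, inv_mul_cancel, Matrix.SpecialLinearGroup.coe_one]
  have e2 : (((g * s * g⁻¹)⁻¹ : Matrix.SpecialLinearGroup (Fin n) F) : Matrix (Fin n) (Fin n) F) =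
      (g : Matrix (Fin n) (Fin n) F) * ((s⁻¹ : Matrix.SpecialLinearGroup (Fin n) F) : Matrix (Fin n) (Fin n) F) *
        ((g⁻¹ : Matrix.SpecialLinearGroup (Fin n) F) : Matrix (Fin n) (Fin n) F) := by
    rw [← Matrix.SpecialLinearGroup.coe_mul, ← Matrix.SpecialLinearGroup.coe_mul, _root_.mul_inv_rev, _root_.mul_inv_rev,
      inv_inv, mul_assoc]
  have e3 : ((g : Matrix (Fin n) (Fin n) F)ᵀ).map σ *
      (((g⁻¹ : Matrix.SpecialLinearGroup (Fin n) F) : Matrix (Fin n) (Fin n) F)ᵀ).map σ = 1 := by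
    rw [← Matrix.map_mul, ← transpose_mul, e1, transpose_one]
    ext i j
    rw [Matrix.map_apply, one_apply]
    split_ifs <;> simp
  have e4 : (((g : Matrix (Fin n) (Fin n) F) * ((s⁻¹ : Matrix.SpecialLinearGroup (Fin n) F) : Matrix (Fin n) (Fin n) F) *
        ((g⁻¹ : Matrix.SpecialLinearGroup (Fin n) F) : Matrix (Fin n) (Fin n) F))ᵀ).map σ =
      (((g⁻¹ : Matrix.SpecialLinearGroup (Fin n) F) : Matrix (Fin n) (Fin n) F)ᵀ).map σ *
      ((((s⁻¹ : Matrix.SpecialLinearGroup (Fin n) F) : Matrix (Fin n) (Fin n) F)ᵀ).map σ *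
      ((g : Matrix (Fin n) (Fin n) F)ᵀ).map σ) := by
    rw [transpose_mul, transpose_mul, Matrix.map_mul, Matrix.map_mul]
  rw [coe_cA, Matrix.SpecialLinearGroup.coe_mul, Matrix.SpecialLinearGroup.coe_mul, e2, e4]
  set G1 := (g : Matrix (Fin n) (Fin n) F)
  set G2 := ((g⁻¹ : Matrix.SpecialLinearGroup (Fin n) F) : Matrix (Fin n) (Fin n) F)
  set X := (G1ᵀ).map σ
  set Y := (G2ᵀ).map σ
  set Z := (((s⁻¹ : Matrix.SpecialLinearGroup (Fin n) F) : Matrix (Fin n) (Fin n) F)ᵀ).map σ
  have e5 := gr_rel A σ s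
  calc G1 * (gr A σ s : Matrix (Fin n) (Fin n) F) * G2 * (G1 * (A : Matrix (Fin n) (Fin n) F) * X)
      = G1 * ((gr A σ s : Matrix (Fin n) (Fin n) F) * ((G2 * G1) * (A : Matrix (Fin n) (Fin n) F))) * X := by
        simp only [mul_assoc]
    _ = G1 * ((A : Matrix (Fin n) (Fin n) F) * Z) * X := by rw [e1, one_mul, e5]
    _ = G1 * (A : Matrix (Fin n) (Fin n) F) * ((X * Y) * (Z * X)) := by rw [e3, one_mul]; simp only [mul_assoc]
    _ = _ := by simp only [mul_assoc]

theorem conj_gr (g : Matrix.SpecialLinearGroup (Fin n) F) (A : GL (Fin n) F) (σ : F ≃+* F) :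
    MulAut.congr (MulAut.conj (pr g)) (lift (gr A σ)) = lift (gr (cA g A σ) σ) := by
  apply MulEquiv.ext
  intro x
  obtain ⟨s, rfl⟩ := pr_surjective x
  have h0 : pr s = MulAut.conj (pr g) (pr (g⁻¹ * s * g)) := by
    rw [MulAut.conj_apply, ← map_inv, ← map_mul, ← map_mul]
    congr 1
    group
  rw [lift_pr, h0, congr_ap, lift_pr, MulAut.conj_apply]
  have h1 := gr_conj g (g⁻¹ * s * g) A σ
  have h2 : g * (g⁻¹ * s * g) * g⁻¹ = s := by group
  rw [h2] at h1
  rw [h1, MonoidHom.map_mul pr, MonoidHom.map_mul pr]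
  rfl

/-- an automorphism which normalises the image of the unitriangular group -/
theorem upper_of_map [Fintype F] {r : ℕ} [Fact r.Prime] [CharP F r] {β : MulAut (Matrix.SpecialLinearGroup (Fin n) F)}
    (h : ∀ m ∈ (upper n F).map pr, lift β m ∈ (upper n F).map pr) : ∀ u ∈ upper n F, β u ∈ upper n F := by
  intro u hu
  obtain ⟨v, hv, e⟩ := h (pr u) ⟨u, hu, rfl⟩
  rw [lift_pr] at e
  obtain ⟨k, -, hk⟩ := FiniteField.card F r
  have hup : IsPGroup r (upper n F) := by
    apply IsPGroup.of_card (n := (k : ℕ) * (n * (n - 1) / 2))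
    rw [card_upper, hk, pow_mul]
  obtain ⟨a, ha⟩ := hup ⟨u, hu⟩
  obtain ⟨b, hb⟩ := hup ⟨v, hv⟩
  have ha' : u ^ r ^ a = 1 := congrArg Subtype.val ha
  have hb' : v ^ r ^ b = 1 := congrArg Subtype.val hb
  obtain ⟨c, hc⟩ := exists_smul_of_pr_eq e
  rcases Nat.eq_zero_or_pos n with hn | hn
  · subst hn
    have : β u = v := Subsingleton.elim _ _
    rw [this]
    exact hv
  have hc1 : c = 1 := by
    have h1 : (β u) ^ r ^ (a + b) = 1 := by
      rw [← map_pow, pow_add, pow_mul, ha', one_pow, map_one]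
    have h2 : v ^ r ^ (a + b) = 1 := by rw [add_comm, pow_add, pow_mul, hb', one_pow]
    have h3 : ((β u : Matrix.SpecialLinearGroup (Fin n) F) : Matrix (Fin n) (Fin n) F) ^ r ^ (a + b) =
        c ^ r ^ (a + b) • (v : Matrix (Fin n) (Fin n) F) ^ r ^ (a + b) := by
      rw [hc, smul_pow]
    have h1' := congrArg (fun x : Matrix.SpecialLinearGroup (Fin n) F => (x : Matrix (Fin n) (Fin n) F)) h1
    have h2' := congrArg (fun x : Matrix.SpecialLinearGroup (Fin n) F => (x : Matrix (Fin n) (Fin n) F)) h2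
    simp only [Matrix.SpecialLinearGroup.coe_pow, Matrix.SpecialLinearGroup.coe_one] at h1' h2'
    rw [h1', h2'] at h3
    have h4 := congrFun (congrFun h3 ⟨0, hn⟩) ⟨0, hn⟩
    rw [Matrix.smul_apply, Matrix.one_apply_eq, smul_eq_mul, mul_one] at h4
    have : ExpChar F r := ExpChar.prime Fact.out
    have h5 : c ^ r ^ (a + b) = 1 ^ r ^ (a + b) := by rw [← h4, one_pow]
    exact iterateFrobenius_inj F r (a + b) h5
  rw [hc1, one_smul] at hc
  have : β u = v := Subtype.ext hc
  rw [this]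
  exact hv

/-- **Reduction** : after conjugation the correlation maps unitriangular matrices to unitriangular matrices. -/
theorem exists_upper [Fintype F] {r : ℕ} [Fact r.Prime] [CharP F r] {A : GL (Fin n) F} {σ : F ≃+* F}
    (h : Cfg (lift (gr A σ))) (S : Sylow r (Matrix.ProjectiveSpecialLinearGroup (Fin n) F))
    (hS : ∀ m ∈ S, lift (gr A σ) m ∈ S) :
    ∃ A' : GL (Fin n) F, Cfg (lift (gr A' σ)) ∧ ∀ u ∈ upper n F, gr A' σ u ∈ upper n F := by
  obtain ⟨U, hU⟩ := exists_sylow (F := F) n r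
  obtain ⟨x, hx⟩ := MulAction.exists_smul_eq (Matrix.ProjectiveSpecialLinearGroup (Fin n) F) S U
  obtain ⟨g, rfl⟩ := pr_surjective x
  refine ⟨cA g A σ, ?_, ?_⟩
  · rw [← conj_gr]
    exact h.congr _
  · apply upper_of_map (r := r)
    intro m hm
    rw [← hU] at hm ⊢
    rw [← conj_gr, ← hx]
    rw [← hx] at hm
    obtain ⟨m', hm', rfl⟩ := hm
    refine ⟨lift (gr A σ) m', hS _ hm', ?_⟩
    show pr g * lift (gr A σ) m' * (pr g)⁻¹ = MulAut.congr (MulAut.conj (pr g)) (lift (gr A σ)) (MulAut.conj (pr g) m')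
    show _ = MulAut.conj (pr g) (lift (gr A σ) ((MulAut.conj (pr g)).symm (MulAut.conj (pr g) m')))
    rw [MulEquiv.symm_apply_apply]
    rfl

/-- the matrix of the reduced correlation is anti-triangular -/
theorem anti [Finite F] {A : GL (Fin n) F} {σ : F ≃+* F} (h : ∀ u ∈ upper n F, gr A σ u ∈ upper n F) :
    ∀ k m : Fin n, n ≤ (k : ℕ) + m → (A : Matrix (Fin n) (Fin n) F) k m = 0 := by
  -- downward induction on `k`
  have key : ∀ (d : ℕ) (k : Fin n), n - 1 - (k : ℕ) = d → ∀ m : Fin n, n ≤ (k : ℕ) + m →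
      (A : Matrix (Fin n) (Fin n) F) k m = 0 := by
    intro d
    induction d using Nat.strong_induction_on with
    | _ d ih =>
      intro k hk m hkm
      -- `j = m`, `i < m` : the transvection `1 + E_{i m}`, `i = m - 1`
      have hm : 0 < (m : ℕ) := by
        have := k.2
        omega
      let i : Fin n := ⟨(m : ℕ) - 1, by have := m.2; omega⟩
      have him : i < m := by
        rw [Fin.lt_def]
        show (m : ℕ) - 1 < m
        omega
      have h1 := h _ (transvection_mem_upper him (1 : F))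
      have h2 := gr_rel A σ (Matrix.SpecialLinearGroup.transvection him.ne (1 : F))
      rw [Matrix.SpecialLinearGroup.transvection_inv] at h2
      set v := gr A σ (Matrix.SpecialLinearGroup.transvection him.ne (1 : F)) with hv
      have h3 : ((((Matrix.SpecialLinearGroup.transvection him.ne (-1 : F)) : Matrix.SpecialLinearGroup (Fin n) F) :
          Matrix (Fin n) (Fin n) F)ᵀ).map σ = 1 - single m i (1 : F) := by
        change (((1 : Matrix (Fin n) (Fin n) F) + single i m (-1 : F))ᵀ).map σ = _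
        rw [transpose_add, transpose_one, transpose_single]
        ext a b
        rw [Matrix.map_apply, Matrix.add_apply, Matrix.sub_apply, map_add, one_apply, single_apply, single_apply]
        split_ifs <;> simp [sub_eq_add_neg]
      rw [h3] at h2
      -- the entry `(k, i)`
      have h4 := congrFun (congrFun h2 k) i
      rw [mul_sub, mul_one, Matrix.sub_apply, Matrix.mul_single_apply_same, mul_one, Matrix.mul_apply,
        Finset.sum_eq_single k] at h4
      · rw [h1 k k le_rfl, if_pos rfl, one_mul] at h4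
        have h5 : (A : Matrix (Fin n) (Fin n) F) k m = 0 := by
          have h6 : (A : Matrix (Fin n) (Fin n) F) k i = (A : Matrix (Fin n) (Fin n) F) k i -
            (A : Matrix (Fin n) (Fin n) F) k m := h4
          have h7 := sub_eq_self.1 h6.symm
          exact h7
        exact h5
      · intro l _ hl
        rcases lt_or_gt_of_ne hl with h5 | h5
        · rw [h1 k l h5.le, if_neg (Ne.symm hl), zero_mul]
        · have h6 : (A : Matrix (Fin n) (Fin n) F) l i = 0 := by
            have h5' : (k : ℕ) < l := h5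
            refine ih (n - 1 - (l : ℕ)) ?_ l rfl i ?_
            · have := l.2
              omega
            · show n ≤ (l : ℕ) + ((m : ℕ) - 1)
              omega
          rw [h6, mul_zero]
      · intro h5
        exact absurd (Finset.mem_univ _) h5
  intro k m
  exact key _ k rfl m

end Cfsg.Agent.H272.Ccp
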