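import Cfsg.Agent.H272.Ccp.Borel
import Cfsg.Agent.H272.Ccp.RealFour

/-!
# S4114: correlations of `PSL_4(3)` normalising a Sylow `3`-subgroup (helper272)
-/

set_option autoImplicit false
set_option linter.unusedSectionVars false
set_option linter.unusedSimpArgs false

namespace Cfsg.Agent.H272.Ccp

open Matrix Cfsg.Agent.H520
open Cfsg.Agent.ClassicalGeometry.AutPSL.Root Cfsg.Agent.ClassicalGeometry.AutPSL.Auto
open Cfsg.Agent.ClassicalGeometry.AutPSL.SylowU

variable {F : Type} [Field F]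

local notation "SL4" => Matrix.SpecialLinearGroup (Fin 4) F
local notation "M4" => Matrix (Fin 4) (Fin 4) F

/-- the elements of a field with three elements -/
theorem three_cases [Fintype F] (h3 : Fintype.card F = 3) (x : F) : x = 0 ∨ x = 1 ∨ x = -1 := by
  by_cases hx : x = 0
  · exact Or.inl hx
  right
  have h1 : x ^ 2 = 1 := by
    have := FiniteField.pow_card_sub_one_eq_one x hx
    rwa [h3] at this
  have h2 : (x - 1) * (x + 1) = 0 := by
    calc (x - 1) * (x + 1) = x ^ 2 - 1 := by ring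
      _ = 0 := by rw [h1, sub_self]
  rcases mul_eq_zero.1 h2 with h | h
  · exact Or.inl (sub_eq_zero.1 h)
  · exact Or.inr (eq_neg_of_add_eq_zero_left h)

theorem entries [Finite F] {A : GL (Fin 4) F} (h : ∀ k m : Fin 4, 4 ≤ (k : ℕ) + m → (A : M4) k m = 0) :
    (A : M4) 3 0 ≠ 0 ∧ (A : M4) 2 1 ≠ 0 ∧ (A : M4) 1 2 ≠ 0 := by
  have z13 := h 1 3 (by decide)
  have z22 := h 2 2 (by decide)
  have z23 := h 2 3 (by decide)
  have z31 := h 3 1 (by decide)
  have z32 := h 3 2 (by decide)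
  have z33 := h 3 3 (by decide)
  have hdet : (A : M4).det ≠ 0 := by
    have := (Matrix.isUnit_iff_isUnit_det (A : M4)).1 A.isUnit
    exact this.ne_zero
  have hform : (A : M4).det = (A : M4) 0 3 * ((A : M4) 1 2 * ((A : M4) 2 1 * (A : M4) 3 0)) := by
    have e : (A : M4) = !![(A : M4) 0 0, (A : M4) 0 1, (A : M4) 0 2, (A : M4) 0 3; (A : M4) 1 0, (A : M4) 1 1,
        (A : M4) 1 2, 0; (A : M4) 2 0, (A : M4) 2 1, 0, 0; (A : M4) 3 0, 0, 0, 0] := by
      ext i j
      fin_cases i <;> fin_cases j <;> simp [z13, z22, z23, z31, z32, z33]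
    rw [e]
    generalize (A : M4) 0 0 = a00
    generalize (A : M4) 0 1 = a01
    generalize (A : M4) 0 2 = a02
    generalize (A : M4) 0 3 = a03
    generalize (A : M4) 1 0 = a10
    generalize (A : M4) 1 1 = a11
    generalize (A : M4) 1 2 = a12
    generalize (A : M4) 2 0 = a20
    generalize (A : M4) 2 1 = a21
    generalize (A : M4) 3 0 = a30
    simp [Matrix.det_succ_row_zero, Fin.sum_univ_succ, Fin.succAbove]
    ring
  rw [hform] at hdet
  refine ⟨?_, ?_, ?_⟩ <;> intro h0 <;> apply hdet <;> rw [h0] <;> ring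

/-- `A A^{-T}` -/
def dd (A : GL (Fin 4) F) : SL4 := ⟨(A : M4) * (((A⁻¹ : GL (Fin 4) F) : M4)ᵀ), by
  rw [Matrix.det_mul, Matrix.det_transpose, ← Matrix.det_mul, ← Units.val_mul, mul_inv_cancel, Units.val_one,
    Matrix.det_one]⟩

theorem dd_mul (A : GL (Fin 4) F) : (dd A : M4) * (A : M4)ᵀ = (A : M4) := by
  show (A : M4) * (((A⁻¹ : GL (Fin 4) F) : M4)ᵀ) * (A : M4)ᵀ = (A : M4)
  rw [mul_assoc, ← transpose_mul, ← Units.val_mul, mul_inv_cancel, Units.val_one, transpose_one, mul_one]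

theorem gr_gr (A : GL (Fin 4) F) {σ : F ≃+* F} (hσ : ∀ x, σ x = x) (s : SL4) :
    gr A σ (gr A σ s) = dd A * s * (dd A)⁻¹ := by
  have hmap : ∀ X : M4, X.map σ = X := by
    intro X
    ext i j
    exact hσ _
  rw [eq_mul_inv_iff_mul_eq]
  set t := gr A σ s with ht
  have h1 := gr_rel A σ s
  have h2 := gr_rel A σ t
  rw [hmap] at h1 h2
  rw [← ht] at h1
  set u := gr A σ t with hu
  apply Subtype.ext
  rw [Matrix.SpecialLinearGroup.coe_mul, Matrix.SpecialLinearGroup.coe_mul]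
  -- `A sᵀ = t⁻¹ A`
  have e1 : ((s⁻¹ : SL4) : M4)ᵀ * (s : M4)ᵀ = 1 := by
    rw [← transpose_mul, ← Matrix.SpecialLinearGroup.coe_mul, mul_inv_cancel, Matrix.SpecialLinearGroup.coe_one,
      transpose_one]
  have e2 : ((t⁻¹ : SL4) : M4) * (t : M4) = 1 := by
    rw [← Matrix.SpecialLinearGroup.coe_mul, inv_mul_cancel, Matrix.SpecialLinearGroup.coe_one]
  have h3 : (A : M4) * (s : M4)ᵀ = ((t⁻¹ : SL4) : M4) * (A : M4) := by
    calc (A : M4) * (s : M4)ᵀ = (((t⁻¹ : SL4) : M4) * (t : M4)) * ((A : M4) * (s : M4)ᵀ) := by rw [e2, one_mul]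
      _ = ((t⁻¹ : SL4) : M4) * ((t : M4) * (A : M4)) * (s : M4)ᵀ := by simp only [mul_assoc]
      _ = ((t⁻¹ : SL4) : M4) * (A : M4) * (((s⁻¹ : SL4) : M4)ᵀ * (s : M4)ᵀ) := by rw [h1]; simp only [mul_assoc]
      _ = _ := by rw [e1, mul_one]
  have h4 := congrArg Matrix.transpose h3
  rw [transpose_mul, transpose_mul, transpose_transpose] at h4
  -- `u A = A t^{-T}`
  show (u : M4) * ((A : M4) * (((A⁻¹ : GL (Fin 4) F) : M4)ᵀ)) = (A : M4) * (((A⁻¹ : GL (Fin 4) F) : M4)ᵀ) * (s : M4)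
  have e3 : (A : M4)ᵀ * (((A⁻¹ : GL (Fin 4) F) : M4)ᵀ) = 1 := by
    rw [← transpose_mul, ← Units.val_mul, inv_mul_cancel, Units.val_one, transpose_one]
  have e4 : (((A⁻¹ : GL (Fin 4) F) : M4)ᵀ) * (A : M4)ᵀ = 1 := by
    rw [← transpose_mul, ← Units.val_mul, mul_inv_cancel, Units.val_one, transpose_one]
  calc (u : M4) * ((A : M4) * (((A⁻¹ : GL (Fin 4) F) : M4)ᵀ))
      = (A : M4) * ((t⁻¹ : SL4) : M4)ᵀ * (((A⁻¹ : GL (Fin 4) F) : M4)ᵀ) := by rw [← mul_assoc, h2]
    _ = (A : M4) * ((((A⁻¹ : GL (Fin 4) F) : M4)ᵀ) * (A : M4)ᵀ) * ((t⁻¹ : SL4) : M4)ᵀ *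
        (((A⁻¹ : GL (Fin 4) F) : M4)ᵀ) := by rw [e4, mul_one]
    _ = (A : M4) * (((A⁻¹ : GL (Fin 4) F) : M4)ᵀ) * ((A : M4)ᵀ * ((t⁻¹ : SL4) : M4)ᵀ) *
        (((A⁻¹ : GL (Fin 4) F) : M4)ᵀ) := by simp only [mul_assoc]
    _ = (A : M4) * (((A⁻¹ : GL (Fin 4) F) : M4)ᵀ) * (s : M4) * ((A : M4)ᵀ * (((A⁻¹ : GL (Fin 4) F) : M4)ᵀ)) := by
        rw [← h4]; simp only [mul_assoc]
    _ = _ := by rw [e3, mul_one]

/-- `(A A^{-T})²` is unitriangular -/
theorem dd_sq [Fintype F] (h3 : Fintype.card F = 3) {A : GL (Fin 4) F}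
    (h : ∀ k m : Fin 4, 4 ≤ (k : ℕ) + m → (A : M4) k m = 0) : dd A * dd A ∈ upper 4 F := by
  obtain ⟨n30, n21, n12⟩ := entries h
  have z13 := h 1 3 (by decide)
  have z22 := h 2 2 (by decide)
  have z23 := h 2 3 (by decide)
  have z31 := h 3 1 (by decide)
  have z32 := h 3 2 (by decide)
  have z33 := h 3 3 (by decide)
  have hD := dd_mul A
  have key : ∀ i j, (dd A : M4) i 0 * (A : M4) j 0 + (dd A : M4) i 1 * (A : M4) j 1 + (dd A : M4) i 2 * (A : M4) j 2 +
      (dd A : M4) i 3 * (A : M4) j 3 = (A : M4) i j := by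
    intro i j
    have h1 := congrFun (congrFun hD i) j
    rw [Matrix.mul_apply, Fin.sum_univ_four] at h1
    exact h1
  set D := dd A with hDdef
  have k13 := key 1 3
  have k23 := key 2 3
  have k33 := key 3 3
  simp only [z31, z32, z33, z13, z23, mul_zero, add_zero] at k13 k23 k33
  have d10 := (mul_eq_zero.1 k13).resolve_right n30
  have d20 := (mul_eq_zero.1 k23).resolve_right n30
  have d30 := (mul_eq_zero.1 k33).resolve_right n30
  have k22 := key 2 2
  have k32 := key 3 2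
  simp only [d20, d30, z22, z23, z32, mul_zero, zero_mul, add_zero, zero_add] at k22 k32
  have d21 := (mul_eq_zero.1 k22).resolve_right n21
  have d31 := (mul_eq_zero.1 k32).resolve_right n21
  have k31 := key 3 1
  simp only [d30, d31, z13, z31, mul_zero, zero_mul, add_zero, zero_add] at k31
  have d32 := (mul_eq_zero.1 k31).resolve_right n12
  have hdet : (D : M4) 0 0 * ((D : M4) 1 1 * ((D : M4) 2 2 * (D : M4) 3 3)) = 1 := by
    have e := D.2
    rw [Matrix.det_succ_column_zero, Fin.sum_univ_four] at e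
    simp only [d10, d20, d30, mul_zero, zero_mul, add_zero] at e
    have e2 : ((D : M4).submatrix (Fin.succAbove 0) Fin.succ).det = (D : M4) 1 1 * ((D : M4) 2 2 * (D : M4) 3 3) := by
      rw [Matrix.det_fin_three]
      have a1 : ((D : M4).submatrix (Fin.succAbove 0) Fin.succ) 0 0 = (D : M4) 1 1 := rfl
      have a2 : ((D : M4).submatrix (Fin.succAbove 0) Fin.succ) 1 1 = (D : M4) 2 2 := rfl
      have a3 : ((D : M4).submatrix (Fin.succAbove 0) Fin.succ) 2 2 = (D : M4) 3 3 := rfl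
      have a4 : ((D : M4).submatrix (Fin.succAbove 0) Fin.succ) 1 0 = 0 := d21
      have a5 : ((D : M4).submatrix (Fin.succAbove 0) Fin.succ) 2 0 = 0 := d31
      have a6 : ((D : M4).submatrix (Fin.succAbove 0) Fin.succ) 2 1 = 0 := d32
      rw [a1, a2, a3, a4, a5, a6]
      ring
    rw [e2] at e
    simpa using e
  have hsq : ∀ x : F, x ≠ 0 → x * x = 1 := by
    intro x hx
    rcases three_cases h3 x with h0 | h0 | h0
    · exact absurd h0 hx
    · rw [h0, one_mul]
    · rw [h0]; ring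
  have n0 : (D : M4) 0 0 ≠ 0 := by rintro h0; rw [h0, zero_mul] at hdet; exact zero_ne_one hdet
  have n1 : (D : M4) 1 1 ≠ 0 := by rintro h0; rw [h0, zero_mul, mul_zero] at hdet; exact zero_ne_one hdet
  have n2 : (D : M4) 2 2 ≠ 0 := by rintro h0; rw [h0, zero_mul, mul_zero, mul_zero] at hdet; exact zero_ne_one hdet
  have n3 : (D : M4) 3 3 ≠ 0 := by
    rintro h0; rw [h0, mul_zero, mul_zero, mul_zero] at hdet; exact zero_ne_one hdet
  rw [mem_upper]
  intro i j hij
  rw [Matrix.SpecialLinearGroup.coe_mul, Matrix.mul_apply, Fin.sum_univ_four]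
  fin_cases i <;> fin_cases j <;> first
    | exact absurd hij (by decide)
    | simp [d10, d20, d30, d21, d31, d32, hsq _ n0, hsq _ n1, hsq _ n2, hsq _ n3]

/-- **PSL_4(3)** -/
theorem psl4_three [Fintype F] (h3 : Fintype.card F = 3) {r : ℕ} [Fact r.Prime] [CharP F r]
    {α : MulAut (Matrix.ProjectiveSpecialLinearGroup (Fin 4) F)} (h : Cfg α)
    (hc : ∃ (A : GL (Fin 4) F) (σ : F ≃+* F), α = lift (cj A * fld σ * itr))
    (S : Sylow r (Matrix.ProjectiveSpecialLinearGroup (Fin 4) F)) (hS : ∀ m ∈ S, α m ∈ S) : False := by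
  obtain ⟨A₀, σ, rfl⟩ := hc
  obtain ⟨A, h', hU⟩ := exists_upper (A := A₀) (σ := σ) h S hS
  clear h hS
  have hanti := anti hU
  have hσ : ∀ x, σ x = x := by
    intro x
    rcases three_cases h3 x with h0 | h0 | h0
    · rw [h0, map_zero]
    · rw [h0, map_one]
    · rw [h0, map_neg, map_one]
  have hthree : (3 : F) = 0 := by
    have := Nat.cast_card_eq_zero F
    rw [h3] at this
    exact_mod_cast this
  have hD2 := dd_sq h3 hanti
  set D := dd A with hD
  set α := lift (gr A σ) with hα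
  have hα2 : α * α = MulAut.conj (pr D) := by
    apply MulEquiv.ext
    intro x
    obtain ⟨s, rfl⟩ := pr_surjective x
    rw [MulAut.mul_apply, hα, lift_pr, lift_pr, gr_gr A hσ, MulAut.conj_apply, map_mul, map_mul]
    rfl
  have hDo : (D * D) ^ 3 ^ 6 = 1 := by
    have h1 : (⟨D * D, hD2⟩ : upper 4 F) ^ Nat.card (upper 4 F) = 1 := pow_card_eq_one'
    rw [card_upper, h3] at h1
    exact congrArg Subtype.val h1
  have hpow4 : α ^ 4 = (α * α) * (α * α) := by
    rw [pow_succ, pow_succ, pow_succ, pow_one]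
    simp only [mul_assoc]
  -- `3 ∣ orderOf α`
  have hord : α ^ (4 * 3 ^ 6) = 1 := by
    have h1 : α ^ (4 * 3 ^ 6) = ((α * α) * (α * α)) ^ 3 ^ 6 := by
      rw [pow_mul, hpow4]
    rw [h1, hα2, ← map_mul, ← map_mul, ← map_pow, ← map_pow, hDo, map_one, map_one]
  have h2G : 2 ∣ Nat.card (Matrix.ProjectiveSpecialLinearGroup (Fin 4) F) := by
    -- the image of `diag(-1,-1,1,1)`
    let a : SL4 := ⟨!![-1, 0, 0, 0; 0, -1, 0, 0; 0, 0, 1, 0; 0, 0, 0, 1], by
      simp [Matrix.det_succ_row_zero, Fin.sum_univ_succ]⟩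
    have ha : a * a = 1 := by
      apply Subtype.ext
      change !![(-1 : F), 0, 0, 0; 0, -1, 0, 0; 0, 0, 1, 0; 0, 0, 0, 1] *
        !![(-1 : F), 0, 0, 0; 0, -1, 0, 0; 0, 0, 1, 0; 0, 0, 0, 1] = 1
      ext i j
      fin_cases i <;> fin_cases j <;> simp [Matrix.mul_apply, Fin.sum_univ_four]
    have h1 : orderOf (pr a) = 2 := by
      apply orderOf_eq_prime
      · rw [pow_two, ← map_mul, ha, map_one]
      · intro h0
        rw [← map_one pr] at h0
        obtain ⟨c, hc⟩ := exists_smul_of_pr_eq h0.symm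
        have q0 := congrFun (congrFun hc 0) 0
        have q3 := congrFun (congrFun hc 3) 3
        rw [Matrix.smul_apply, Matrix.SpecialLinearGroup.coe_one, one_apply_eq, smul_eq_mul, mul_one] at q0 q3
        have q0' : (-1 : F) = c := q0
        have q3' : (1 : F) = c := q3
        rw [← q3'] at q0'
        have : (1 : F) = 0 := by
          calc (1 : F) = 3 - 1 - 1 := by norm_num
            _ = 0 := by rw [hthree]; linear_combination q0'
        exact one_ne_zero this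
    rw [← h1]
    exact orderOf_dvd_natCard _
  obtain ⟨p, hp, hp2, hpα⟩ := h'.exists_prime_ne Nat.prime_two h2G
  have hp3 : p = 3 := by
    have h1 := hpα.trans (orderOf_dvd_of_pow_eq_one hord)
    rcases (Nat.Prime.dvd_mul hp).1 h1 with h2 | h2
    · have h4 : p ∣ 2 := hp.dvd_of_dvd_pow (n := 2) (by norm_num; exact h2)
      exact absurd ((Nat.prime_dvd_prime_iff_eq hp Nat.prime_two).1 h4) hp2
    · exact (Nat.prime_dvd_prime_iff_eq hp Nat.prime_three).1 (hp.dvd_of_dvd_pow h2)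
  subst hp3
  obtain ⟨y, hy, hyo⟩ := exists_prime_order hp hpα
  obtain ⟨j, hj⟩ := hy
  have hj' : α ^ j = y := hj
  set E : SL4 := (D * D) ^ j with hE
  have hEU : E ∈ upper 4 F := zpow_mem hD2 j
  have hyE : y = MulAut.conj (pr E) := by
    have h1 : y = y ^ 4 := by
      have h2 : y ^ 3 = 1 := by rw [← hyo]; exact pow_orderOf_eq_one y
      rw [pow_succ, h2, one_mul]
    have h2 : y ^ 4 = ((α * α) * (α * α)) ^ j := by
      rw [← hj', ← zpow_natCast, ← _root_.zpow_mul, mul_comm, _root_.zpow_mul, zpow_natCast, hpow4]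
    rw [h1, h2, hα2, ← map_mul, ← map_mul, ← map_zpow, ← map_zpow]
  have hE3 : E ^ 3 = 1 := by
    have h1 : MulAut.conj (pr (E ^ 3)) = MulAut.conj (1 : Matrix.ProjectiveSpecialLinearGroup (Fin 4) F) := by
      rw [map_one, map_pow, map_pow, ← hyE, ← hyo]
      exact pow_orderOf_eq_one y
    have h2 := conj_inj h'.center_bot h1
    rw [← map_one pr] at h2
    exact pr_injOn_upper (pow_mem hEU 3) (one_mem _) h2
  have hEm : (E : M4) * (E : M4) * (E : M4) = 1 := by
    have h1 := congrArg (fun x : SL4 => (x : M4)) hE3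
    simp only [Matrix.SpecialLinearGroup.coe_pow, Matrix.SpecialLinearGroup.coe_one] at h1
    rw [← h1, pow_succ, pow_two]
  have hN : ((E : M4) - 1) * ((E : M4) - 1) * ((E : M4) - 1) = 0 := by
    have h1 : ((E : M4) - 1) * ((E : M4) - 1) * ((E : M4) - 1) =
        (E : M4) * (E : M4) * (E : M4) - 1 - (3 : F) • ((E : M4) * (E : M4)) + (3 : F) • (E : M4) := by
      have e1 : (3 : F) • ((E : M4) * (E : M4)) = (E : M4) * (E : M4) + (E : M4) * (E : M4) + (E : M4) * (E : M4) := by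
        rw [show (3 : F) = 1 + 1 + 1 by norm_num, add_smul, add_smul, one_smul]
      have e2 : (3 : F) • (E : M4) = (E : M4) + (E : M4) + (E : M4) := by
        rw [show (3 : F) = 1 + 1 + 1 by norm_num, add_smul, add_smul, one_smul]
      rw [e1, e2]
      noncomm_ring
    rw [h1, hEm, hthree, zero_smul, zero_smul]
    simp
  obtain ⟨g, hg⟩ := real_four (E := E) (N := (E : M4) - 1) (by rw [add_sub_cancel]) hN
  have hreal := h'.sq_eq_one_of_real (y := pr E) (by rw [← hyE]; exact ⟨j, hj⟩) (g := pr g) (by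
    rw [← hα] at *
    have h1 := congrArg pr hg
    rw [map_mul, map_mul] at h1
    exact h1)
  have h3' : (pr E : Matrix.ProjectiveSpecialLinearGroup (Fin 4) F) ^ 3 = 1 := by rw [← map_pow, hE3, map_one]
  have hfin : (pr E : Matrix.ProjectiveSpecialLinearGroup (Fin 4) F) = 1 := by
    rw [pow_succ, hreal, one_mul] at h3'
    exact h3'
  rw [hfin, map_one] at hyE
  rw [hyE, orderOf_one] at hyo
  omega

end Cfsg.Agent.H272.Ccp
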