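import Cfsg.Agent.H272.Ccp.Borel

/-!
# S4114: correlations of `PSL_3(F)` normalising a Sylow subgroup in the characteristic (helper272)
-/

set_option autoImplicit false
set_option linter.unusedSectionVars false
set_option linter.unusedSimpArgs false

namespace Cfsg.Agent.H272.Ccp

open Matrix Cfsg.Agent.H520
open Cfsg.Agent.ClassicalGeometry.AutPSL.Root Cfsg.Agent.ClassicalGeometry.AutPSL.Auto
open Cfsg.Agent.ClassicalGeometry.AutPSL.SylowU

variable {F : Type} [Field F]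

local notation "SL3" => Matrix.SpecialLinearGroup (Fin 3) F
local notation "M3" => Matrix (Fin 3) (Fin 3) F

/-- upper triangular -/
def Tri (s : M3) : Prop := s 1 0 = 0 ∧ s 2 0 = 0 ∧ s 2 1 = 0

theorem Tri.diag_ne {s : SL3} (h : Tri (s : M3)) : (s : M3) 0 0 ≠ 0 ∧ (s : M3) 1 1 ≠ 0 ∧ (s : M3) 2 2 ≠ 0 := by
  have h1 := s.2
  rw [Matrix.det_fin_three] at h1
  obtain ⟨h10, h20, h21⟩ := h
  have h2 : (s : M3) 0 0 * (s : M3) 1 1 * (s : M3) 2 2 = 1 := by
    simpa only [h10, h20, h21, mul_zero, zero_mul, add_zero, sub_zero] using h1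
  refine ⟨?_, ?_, ?_⟩ <;> intro h0 <;> rw [h0] at h2 <;> simp at h2

theorem Tri.inv {s : SL3} (h : Tri (s : M3)) : Tri ((s⁻¹ : SL3) : M3) ∧
    ((s⁻¹ : SL3) : M3) 0 0 = ((s : M3) 0 0)⁻¹ ∧ ((s⁻¹ : SL3) : M3) 1 1 = ((s : M3) 1 1)⁻¹ ∧
    ((s⁻¹ : SL3) : M3) 2 2 = ((s : M3) 2 2)⁻¹ := by
  obtain ⟨d0, d1, d2⟩ := h.diag_ne
  obtain ⟨h10, h20, h21⟩ := h
  have e : ((s⁻¹ : SL3) : M3) * (s : M3) = 1 := by
    rw [← Matrix.SpecialLinearGroup.coe_mul, inv_mul_cancel, Matrix.SpecialLinearGroup.coe_one]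
  have key : ∀ i j, ((s⁻¹ : SL3) : M3) i 0 * (s : M3) 0 j + ((s⁻¹ : SL3) : M3) i 1 * (s : M3) 1 j +
      ((s⁻¹ : SL3) : M3) i 2 * (s : M3) 2 j = (1 : M3) i j := by
    intro i j
    rw [← e, Matrix.mul_apply, Fin.sum_univ_three]
  have k00 := key 0 0
  have k10 := key 1 0
  have k20 := key 2 0
  have k11 := key 1 1
  have k21 := key 2 1
  have k22 := key 2 2
  rw [h10, h20, mul_zero, mul_zero, add_zero, add_zero] at k00 k10 k20
  rw [one_apply_eq] at k00 k11 k22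
  rw [one_apply_ne (by decide)] at k10 k20 k21
  have z10 : ((s⁻¹ : SL3) : M3) 1 0 = 0 := (mul_eq_zero.1 k10).resolve_right d0
  have z20 : ((s⁻¹ : SL3) : M3) 2 0 = 0 := (mul_eq_zero.1 k20).resolve_right d0
  rw [z10, h21, zero_mul, mul_zero, zero_add, add_zero] at k11
  rw [z20, h21, zero_mul, mul_zero, zero_add, add_zero] at k21
  have z21 : ((s⁻¹ : SL3) : M3) 2 1 = 0 := (mul_eq_zero.1 k21).resolve_right d1
  rw [z20, z21, zero_mul, zero_mul, zero_add, zero_add] at k22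
  exact ⟨⟨z10, z20, z21⟩, eq_inv_of_mul_eq_one_left k00, eq_inv_of_mul_eq_one_left k11, eq_inv_of_mul_eq_one_left k22⟩

theorem mul_tri {a b : M3} (ha : Tri a) (hb : Tri b) : Tri (a * b) ∧ (a * b) 0 0 = a 0 0 * b 0 0 ∧
    (a * b) 1 1 = a 1 1 * b 1 1 ∧ (a * b) 2 2 = a 2 2 * b 2 2 := by
  obtain ⟨a10, a20, a21⟩ := ha
  obtain ⟨b10, b20, b21⟩ := hb
  refine ⟨⟨?_, ?_, ?_⟩, ?_, ?_, ?_⟩ <;>
    simp only [Matrix.mul_apply, Fin.sum_univ_three, a10, a20, a21, b10, b20, b21, zero_mul, mul_zero, add_zero, zero_add]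

theorem mem_upper_iff [Finite F] {s : SL3} : s ∈ upper 3 F ↔
    Tri (s : M3) ∧ (s : M3) 0 0 = 1 ∧ (s : M3) 1 1 = 1 ∧ (s : M3) 2 2 = 1 := by
  rw [mem_upper]
  constructor
  · intro h
    exact ⟨⟨h 1 0 (by decide), h 2 0 (by decide), h 2 1 (by decide)⟩, h 0 0 le_rfl, h 1 1 le_rfl, h 2 2 le_rfl⟩
  · rintro ⟨⟨h10, h20, h21⟩, h0, h1, h2⟩ i j hij
    fin_cases i <;> fin_cases j <;> simp_all

/-- two triangular matrices with the same diagonal -/
theorem inv_mul_mem [Finite F] {s t : SL3} (hs : Tri (s : M3)) (ht : Tri (t : M3)) (h0 : (s : M3) 0 0 = (t : M3) 0 0)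
    (h1 : (s : M3) 1 1 = (t : M3) 1 1) (h2 : (s : M3) 2 2 = (t : M3) 2 2) : s⁻¹ * t ∈ upper 3 F := by
  obtain ⟨hi, e0, e1, e2⟩ := hs.inv
  obtain ⟨d0, d1, d2⟩ := hs.diag_ne
  obtain ⟨hm, m0, m1, m2⟩ := mul_tri hi ht
  rw [mem_upper_iff, Matrix.SpecialLinearGroup.coe_mul]
  refine ⟨hm, ?_, ?_, ?_⟩
  · rw [m0, e0, ← h0, inv_mul_cancel₀ d0]
  · rw [m1, e1, ← h1, inv_mul_cancel₀ d1]
  · rw [m2, e2, ← h2, inv_mul_cancel₀ d2]

/-- anti-triangular invertible matrices -/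
structure AT (A : GL (Fin 3) F) : Prop where
  z12 : (A : M3) 1 2 = 0
  z21 : (A : M3) 2 1 = 0
  z22 : (A : M3) 2 2 = 0
  n02 : (A : M3) 0 2 ≠ 0
  n11 : (A : M3) 1 1 ≠ 0
  n20 : (A : M3) 2 0 ≠ 0

theorem at_of [Finite F] {A : GL (Fin 3) F} {σ : F ≃+* F} (h : ∀ u ∈ upper 3 F, gr A σ u ∈ upper 3 F) : AT A := by
  have h1 := anti h
  have z12 := h1 1 2 (by decide)
  have z21 := h1 2 1 (by decide)
  have z22 := h1 2 2 (by decide)
  have hdet : (A : M3).det ≠ 0 := by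
    have := (Matrix.isUnit_iff_isUnit_det (A : M3)).1 A.isUnit
    exact this.ne_zero
  rw [Matrix.det_fin_three, z12, z21, z22] at hdet
  refine ⟨z12, z21, z22, ?_, ?_, ?_⟩ <;> intro h0 <;> apply hdet <;> rw [h0] <;> ring

/-- the action on triangular matrices -/
theorem AT.tri {A : GL (Fin 3) F} (hA : AT A) (σ : F ≃+* F) {s : SL3} (hs : Tri (s : M3)) :
    Tri (gr A σ s : M3) ∧ (gr A σ s : M3) 0 0 = σ ((s : M3) 2 2)⁻¹ ∧ (gr A σ s : M3) 1 1 = σ ((s : M3) 1 1)⁻¹ ∧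
      (gr A σ s : M3) 2 2 = σ ((s : M3) 0 0)⁻¹ := by
  obtain ⟨⟨i10, i20, i21⟩, e0, e1, e2⟩ := hs.inv
  have hrel := gr_rel A σ s
  set t := gr A σ s with ht
  have key : ∀ i j, (t : M3) i 0 * (A : M3) 0 j + (t : M3) i 1 * (A : M3) 1 j + (t : M3) i 2 * (A : M3) 2 j =
      (A : M3) i 0 * σ (((s⁻¹ : SL3) : M3) j 0) + (A : M3) i 1 * σ (((s⁻¹ : SL3) : M3) j 1) +
        (A : M3) i 2 * σ (((s⁻¹ : SL3) : M3) j 2) := by
    intro i j
    have h1 := congrFun (congrFun hrel i) j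
    rw [Matrix.mul_apply, Matrix.mul_apply, Fin.sum_univ_three, Fin.sum_univ_three] at h1
    exact h1
  have k02 := key 0 2
  have k12 := key 1 2
  have k22 := key 2 2
  have k11 := key 1 1
  have k21 := key 2 1
  have k20 := key 2 0
  simp only [hA.z12, hA.z22, i20, i21, map_zero, mul_zero, zero_mul, add_zero, zero_add] at k02 k12
  simp only [hA.z12, hA.z22, hA.z21, i20, i21, map_zero, mul_zero, zero_mul, add_zero, zero_add] at k22
  have t10 : (t : M3) 1 0 = 0 := (mul_eq_zero.1 k12).resolve_right hA.n02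
  have t20 : (t : M3) 2 0 = 0 := (mul_eq_zero.1 k22).resolve_right hA.n02
  simp only [t10, hA.z21, hA.z12, i10, map_zero, mul_zero, zero_mul, add_zero, zero_add] at k02 k11
  simp only [t20, hA.z21, hA.z22, i10, map_zero, mul_zero, zero_mul, add_zero, zero_add] at k21
  have t21 : (t : M3) 2 1 = 0 := (mul_eq_zero.1 k21).resolve_right hA.n11
  simp only [t20, t21, hA.z21, hA.z22, map_zero, mul_zero, zero_mul, add_zero, zero_add] at k20
  rw [e0, mul_comm] at k20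
  rw [e1, mul_comm] at k11
  refine ⟨⟨t10, t20, t21⟩, ?_, ?_, ?_⟩
  · rw [mul_comm, e2] at k02
    exact mul_left_cancel₀ hA.n02 k02
  · exact mul_left_cancel₀ hA.n11 k11
  · exact mul_left_cancel₀ hA.n20 k20

/-- the normaliser is invariant -/
theorem normalizer_inv {G : Type*} [Group G] [Finite G] {α : MulAut G} {N : Subgroup G} (hN : ∀ m ∈ N, α m ∈ N) :
    ∀ m ∈ Subgroup.normalizer (N : Set G), α m ∈ Subgroup.normalizer (N : Set G) := by
  have h1 : N.map α.toMonoidHom = N := by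
    apply Subgroup.eq_of_le_of_card_ge
    · rintro _ ⟨m, hm, rfl⟩
      exact hN m hm
    · exact (Nat.card_congr (N.equivMapOfInjective α.toMonoidHom α.injective).toEquiv).le
  intro m hm
  rw [Subgroup.mem_normalizer_iff] at hm ⊢
  intro x
  obtain ⟨y, rfl⟩ := α.surjective x
  have h2 : ∀ z, α z ∈ N ↔ z ∈ N := by
    intro z
    constructor
    · intro hz
      rw [← h1] at hz
      obtain ⟨w, hw, e⟩ := hz
      have : w = z := α.injective e
      rw [← this]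
      exact hw
    · exact hN z
  have h3 := hm y
  have h4 := h2 y
  have h5 := h2 (m * y * m⁻¹)
  rw [map_mul, map_mul, map_inv] at h5
  exact h4.trans (h3.trans h5.symm)

/-- **odd characteristic** -/
theorem odd_false [Fintype F] (h2 : (2 : F) ≠ 0) {A : GL (Fin 3) F} {σ : F ≃+* F} (h : Cfg (lift (gr A σ)))
    (hU : ∀ u ∈ upper 3 F, gr A σ u ∈ upper 3 F) : False := by
  have hA := at_of hU
  let a : SL3 := ⟨!![-1, 0, 0; 0, -1, 0; 0, 0, 1], by rw [Matrix.det_fin_three]; simp⟩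
  have ha : Tri (a : M3) := ⟨rfl, rfl, rfl⟩
  have a0 : (a : M3) 0 0 = -1 := rfl
  have a1 : (a : M3) 1 1 = -1 := rfl
  have a2 : (a : M3) 2 2 = 1 := rfl
  have haa : a * a = 1 := by
    apply Subtype.ext
    change !![(-1 : F), 0, 0; 0, -1, 0; 0, 0, 1] * !![(-1 : F), 0, 0; 0, -1, 0; 0, 0, 1] = 1
    ext i j
    fin_cases i <;> fin_cases j <;> simp [Matrix.mul_apply, Fin.sum_univ_three]
  obtain ⟨ht, t0, t1, t2⟩ := hA.tri σ ha
  rw [a2, inv_one, map_one] at t0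
  rw [a1, inv_neg, inv_one, map_neg, map_one] at t1
  rw [a0, inv_neg, inv_one, map_neg, map_one] at t2
  obtain ⟨hi, i0, i1, i2⟩ := ha.inv
  rw [a0, inv_neg, inv_one] at i0
  rw [a1, inv_neg, inv_one] at i1
  rw [a2, inv_one] at i2
  let w : SL3 := a⁻¹ * gr A σ a
  obtain ⟨hw, w0, w1, w2⟩ := mul_tri hi ht
  have hw' : Tri (w : M3) := hw
  have w0' : (w : M3) 0 0 = -1 := by
    show (((a⁻¹ : SL3) : M3) * (gr A σ a : M3)) 0 0 = -1
    rw [w0, i0, t0, mul_one]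
  have w1' : (w : M3) 1 1 = 1 := by
    show (((a⁻¹ : SL3) : M3) * (gr A σ a : M3)) 1 1 = 1
    rw [w1, i1, t1]
    ring
  have w2' : (w : M3) 2 2 = -1 := by
    show (((a⁻¹ : SL3) : M3) * (gr A σ a : M3)) 2 2 = -1
    rw [w2, i2, t2, one_mul]
  obtain ⟨hv, v0, v1, v2⟩ := hA.tri σ hw'
  rw [w2', inv_neg, inv_one, map_neg, map_one] at v0
  rw [w1', inv_one, map_one] at v1
  rw [w0', inv_neg, inv_one, map_neg, map_one] at v2
  have hwv := inv_mul_mem hw' hv (w0'.trans v0.symm) (w1'.trans v1.symm) (w2'.trans v2.symm)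
  set N : Subgroup (Matrix.ProjectiveSpecialLinearGroup (Fin 3) F) := (upper 3 F).map pr with hNdef
  have hN : ∀ m ∈ N, lift (gr A σ) m ∈ N := by
    rintro _ ⟨u, hu, rfl⟩
    exact ⟨_, hU u hu, (lift_pr _ _).symm⟩
  have hconj : ∀ m ∈ N, pr a * m * (pr a)⁻¹ ∈ N := by
    rintro _ ⟨u, hu, rfl⟩
    refine ⟨a * u * a⁻¹, ?_, by rw [map_mul, map_mul]; rfl⟩
    obtain ⟨hu', u0, u1, u2⟩ := mem_upper_iff.1 hu
    obtain ⟨hb, b0, b1, b2⟩ := mul_tri ha hu'
    obtain ⟨hc, c0, c1, c2⟩ := mul_tri hb hi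
    rw [SetLike.mem_coe, mem_upper_iff, Matrix.SpecialLinearGroup.coe_mul, Matrix.SpecialLinearGroup.coe_mul]
    refine ⟨hc, ?_, ?_, ?_⟩
    · rw [c0, b0, a0, u0, i0]; ring
    · rw [c1, b1, a1, u1, i1]; ring
    · rw [c2, b2, a2, u2, i2]; ring
  have hga : pr a ∈ Subgroup.normalizer (N : Set (Matrix.ProjectiveSpecialLinearGroup (Fin 3) F)) := by
    rw [Subgroup.mem_normalizer_iff]
    intro x
    refine ⟨fun hx => hconj x hx, fun hx => ?_⟩
    have h1 := hconj _ hx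
    have h3 : pr a * pr a = (1 : Matrix.ProjectiveSpecialLinearGroup (Fin 3) F) := by rw [← map_mul, haa, map_one]
    have h4 : (pr a)⁻¹ = (pr a : Matrix.ProjectiveSpecialLinearGroup (Fin 3) F) := inv_eq_of_mul_eq_one_left h3
    rw [h4] at h1
    have h5 : pr a * (pr a * x * pr a) * pr a = x := by
      calc pr a * (pr a * x * pr a) * pr a = (pr a * pr a) * x * (pr a * pr a) := by simp only [mul_assoc]
        _ = x := by rw [h3, one_mul, mul_one]
    rw [h5] at h1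
    exact h1
  have hx : (pr a)⁻¹ * lift (gr A σ) (pr a) = pr w := by
    rw [lift_pr]
    show _ = pr (a⁻¹ * gr A σ a)
    rw [map_mul]
    rfl
  have hfin := swap_lem h.ccp (Subgroup.normalizer (N : Set _)) N (normalizer_inv hN) hN
    (fun m hm n hn => (Subgroup.mem_normalizer_iff.1 hm n).1 hn) hga (by
      rw [hx, lift_pr]
      exact ⟨w⁻¹ * gr A σ w, hwv, by rw [map_mul]; rfl⟩)
  rw [hx] at hfin
  obtain ⟨u, hu, e⟩ := hfin
  obtain ⟨c, hc⟩ := exists_smul_of_pr_eq e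
  obtain ⟨-, u0, u1, -⟩ := mem_upper_iff.1 hu
  have q0 := congrFun (congrFun hc 0) 0
  have q1 := congrFun (congrFun hc 1) 1
  rw [Matrix.smul_apply, w0', u0, smul_eq_mul, mul_one] at q0
  rw [Matrix.smul_apply, w1', u1, smul_eq_mul, mul_one] at q1
  rw [← q0] at q1
  apply h2
  calc (2 : F) = 1 - (-1) := by ring
    _ = 0 := by rw [← q1]; ring

/-! ### Characteristic two -/

theorem inv_upper [Finite F] {s : SL3} (hs : s ∈ upper 3 F) : ((s⁻¹ : SL3) : M3) 0 1 = -(s : M3) 0 1 ∧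
    ((s⁻¹ : SL3) : M3) 1 2 = -(s : M3) 1 2 ∧
      ((s⁻¹ : SL3) : M3) 0 2 = (s : M3) 0 1 * (s : M3) 1 2 - (s : M3) 0 2 := by
  obtain ⟨h, s0, s1, s2⟩ := mem_upper_iff.1 hs
  obtain ⟨-, i0, i1, i2⟩ := mem_upper_iff.1 (inv_mem hs)
  obtain ⟨h10, h20, h21⟩ := h
  have e : ((s⁻¹ : SL3) : M3) * (s : M3) = 1 := by
    rw [← Matrix.SpecialLinearGroup.coe_mul, inv_mul_cancel, Matrix.SpecialLinearGroup.coe_one]
  have key : ∀ i j, ((s⁻¹ : SL3) : M3) i 0 * (s : M3) 0 j + ((s⁻¹ : SL3) : M3) i 1 * (s : M3) 1 j +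
      ((s⁻¹ : SL3) : M3) i 2 * (s : M3) 2 j = (1 : M3) i j := by
    intro i j
    rw [← e, Matrix.mul_apply, Fin.sum_univ_three]
  obtain ⟨⟨j10, j20, j21⟩, -⟩ := mem_upper_iff.1 (inv_mem hs)
  have k01 := key 0 1
  have k02 := key 0 2
  have k12 := key 1 2
  simp only [i0, i1, i2, s0, s1, s2, h10, h20, h21, j10, j20, j21, one_mul, mul_one, mul_zero, zero_mul, add_zero,
    zero_add] at k01 k02 k12
  rw [one_apply_ne (by decide)] at k01 k02 k12
  have e01 : ((s⁻¹ : SL3) : M3) 0 1 = -(s : M3) 0 1 := eq_neg_of_add_eq_zero_right k01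
  have e12 : ((s⁻¹ : SL3) : M3) 1 2 = -(s : M3) 1 2 := eq_neg_of_add_eq_zero_right k12
  refine ⟨e01, e12, ?_⟩
  rw [e01] at k02
  linear_combination k02

/-- the action on the unitriangular matrices -/
theorem AT.upp [Finite F] {A : GL (Fin 3) F} (hA : AT A) (σ : F ≃+* F) {s : SL3} (hs : s ∈ upper 3 F) :
    gr A σ s ∈ upper 3 F ∧ (gr A σ s : M3) 0 1 * (A : M3) 1 1 = -((A : M3) 0 2 * σ ((s : M3) 1 2)) ∧
      (gr A σ s : M3) 1 2 * (A : M3) 2 0 = -((A : M3) 1 1 * σ ((s : M3) 0 1)) ∧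
      (gr A σ s : M3) 0 1 * (A : M3) 1 0 + (gr A σ s : M3) 0 2 * (A : M3) 2 0 = -((A : M3) 0 1 * σ ((s : M3) 0 1)) +
        (A : M3) 0 2 * σ ((s : M3) 0 1 * (s : M3) 1 2 - (s : M3) 0 2) := by
  obtain ⟨h, s0, s1, s2⟩ := mem_upper_iff.1 hs
  obtain ⟨ht, t0, t1, t2⟩ := hA.tri σ h
  rw [s0, inv_one, map_one] at t2
  rw [s1, inv_one, map_one] at t1
  rw [s2, inv_one, map_one] at t0
  have hup : gr A σ s ∈ upper 3 F := mem_upper_iff.2 ⟨ht, t0, t1, t2⟩
  refine ⟨hup, ?_⟩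
  obtain ⟨i01, i12, i02⟩ := inv_upper hs
  obtain ⟨⟨j10, j20, j21⟩, i0, i1, i2⟩ := mem_upper_iff.1 (inv_mem hs)
  obtain ⟨t10, t20, t21⟩ := ht
  have hrel := gr_rel A σ s
  set t := gr A σ s with ht
  have key : ∀ i j, (t : M3) i 0 * (A : M3) 0 j + (t : M3) i 1 * (A : M3) 1 j + (t : M3) i 2 * (A : M3) 2 j =
      (A : M3) i 0 * σ (((s⁻¹ : SL3) : M3) j 0) + (A : M3) i 1 * σ (((s⁻¹ : SL3) : M3) j 1) +
        (A : M3) i 2 * σ (((s⁻¹ : SL3) : M3) j 2) := by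
    intro i j
    have h1 := congrFun (congrFun hrel i) j
    rw [Matrix.mul_apply, Matrix.mul_apply, Fin.sum_univ_three, Fin.sum_univ_three] at h1
    exact h1
  have k01 := key 0 1
  have k10 := key 1 0
  have k00 := key 0 0
  simp only [t0, t1, t2, t10, t20, t21, j10, j20, j21, i0, i1, i2, i01, i12, i02, hA.z12, hA.z21, hA.z22, map_zero,
    map_one, map_neg, mul_zero, zero_mul, one_mul, mul_one, add_zero, zero_add] at k01 k10 k00
  refine ⟨?_, ?_, ?_⟩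
  · linear_combination k01
  · linear_combination k10
  · linear_combination k00

/-- the centre of the unitriangular group -/
def zs (F : Type) [Field F] [Finite F] : Subgroup (Matrix.SpecialLinearGroup (Fin 3) F) where
  carrier := {s | s ∈ upper 3 F ∧ (s : Matrix (Fin 3) (Fin 3) F) 0 1 = 0 ∧ (s : Matrix (Fin 3) (Fin 3) F) 1 2 = 0}
  mul_mem' := by
    rintro a b ⟨ha, a01, a12⟩ ⟨hb, b01, b12⟩
    obtain ⟨⟨a10, a20, a21⟩, a0, a1, a2⟩ := mem_upper_iff.1 ha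
    obtain ⟨⟨b10, b20, b21⟩, b0, b1, b2⟩ := mem_upper_iff.1 hb
    refine ⟨mul_mem ha hb, ?_, ?_⟩ <;>
      rw [Matrix.SpecialLinearGroup.coe_mul, Matrix.mul_apply, Fin.sum_univ_three] <;>
      simp only [a01, a12, b01, b12, a10, a20, a21, b10, b20, b21, mul_zero, zero_mul, add_zero]
  one_mem' := ⟨one_mem _, by rw [Matrix.SpecialLinearGroup.coe_one]; exact one_apply_ne (by decide), by
    rw [Matrix.SpecialLinearGroup.coe_one]; exact one_apply_ne (by decide)⟩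
  inv_mem' := by
    rintro a ⟨ha, a01, a12⟩
    obtain ⟨i01, i12, -⟩ := inv_upper ha
    exact ⟨inv_mem ha, by rw [i01, a01, neg_zero], by rw [i12, a12, neg_zero]⟩

theorem mem_zs [Finite F] {s : SL3} : s ∈ zs F ↔ s ∈ upper 3 F ∧ (s : M3) 0 1 = 0 ∧ (s : M3) 1 2 = 0 := Iff.rfl

theorem mul_upper [Finite F] {s t : SL3} (hs : s ∈ upper 3 F) (ht : t ∈ upper 3 F) :
    ((s * t : SL3) : M3) 0 1 = (s : M3) 0 1 + (t : M3) 0 1 ∧ ((s * t : SL3) : M3) 1 2 = (s : M3) 1 2 + (t : M3) 1 2 := by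
  obtain ⟨⟨a10, a20, a21⟩, a0, a1, a2⟩ := mem_upper_iff.1 hs
  obtain ⟨⟨b10, b20, b21⟩, b0, b1, b2⟩ := mem_upper_iff.1 ht
  constructor <;>
    rw [Matrix.SpecialLinearGroup.coe_mul, Matrix.mul_apply, Fin.sum_univ_three] <;>
    simp only [a0, a1, a2, b0, b1, b2, a10, a20, a21, b10, b20, b21, mul_zero, zero_mul, add_zero, zero_add, one_mul,
      mul_one]
  · rw [add_comm]
  · rw [add_comm]

/-- the unitriangular matrix with given entries -/
def uu (a b c : F) : SL3 := ⟨!![1, a, c; 0, 1, b; 0, 0, 1], by rw [Matrix.det_fin_three]; simp⟩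

theorem uu_mem [Finite F] (a b c : F) : uu a b c ∈ upper 3 F := mem_upper_iff.2 ⟨⟨rfl, rfl, rfl⟩, rfl, rfl, rfl⟩

theorem pr_mem_map [Finite F] {K : Subgroup SL3} (hK : K ≤ upper 3 F) {s : SL3} (hs : s ∈ upper 3 F)
    (h : pr s ∈ K.map pr) : s ∈ K := by
  obtain ⟨k, hk, e⟩ := h
  rw [← pr_injOn_upper (hK hk) hs e]
  exact hk

theorem eq_uu [Finite F] {s : SL3} (hs : s ∈ upper 3 F) : s = uu ((s : M3) 0 1) ((s : M3) 1 2) ((s : M3) 0 2) := by
  obtain ⟨⟨a10, a20, a21⟩, a0, a1, a2⟩ := mem_upper_iff.1 hs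
  apply Subtype.ext
  change (s : M3) = !![1, (s : M3) 0 1, (s : M3) 0 2; 0, 1, (s : M3) 1 2; 0, 0, 1]
  ext i j
  fin_cases i <;> fin_cases j <;> simp_all

section Even

variable [Fintype F] {A : GL (Fin 3) F} {σ : F ≃+* F}

/-- the section `U / Z(U)` : an element of `U` fixed modulo `Z(U)` with ... -/
theorem sec_false (hc : ∀ x : F, -x = x) (h : Cfg (lift (gr A σ))) (hA : AT A) {a b : F}
    (e1 : a * (A : M3) 1 1 = -((A : M3) 0 2 * σ b)) (e2 : b * (A : M3) 2 0 = -((A : M3) 1 1 * σ a)) : a = 0 ∧ b = 0 := by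
  have hg := uu_mem a 0 0
  obtain ⟨hv, v01, v12, -⟩ := hA.upp σ hg
  have g01 : (uu a 0 0 : M3) 0 1 = a := rfl
  have g12 : (uu a 0 0 : M3) 1 2 = 0 := rfl
  rw [g12, map_zero, mul_zero, neg_zero] at v01
  have v01' := (mul_eq_zero.1 v01).resolve_right hA.n11
  rw [g01, ← e2] at v12
  have v12' := mul_right_cancel₀ hA.n20 v12
  set w : SL3 := (uu a 0 0)⁻¹ * gr A σ (uu a 0 0) with hw
  have hwu : w ∈ upper 3 F := mul_mem (inv_mem hg) hv
  have w01 : (w : M3) 0 1 = a := by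
    rw [hw, (mul_upper (inv_mem hg) hv).1, (inv_upper hg).1, v01', add_zero, g01, hc]
  have w12 : (w : M3) 1 2 = b := by
    rw [hw, (mul_upper (inv_mem hg) hv).2, (inv_upper hg).2.1, v12', g12, neg_zero, zero_add]
  obtain ⟨hx, x01, x12, -⟩ := hA.upp σ hwu
  rw [w12, ← e1] at x01
  rw [w01, ← e2] at x12
  have x01' := mul_right_cancel₀ hA.n11 x01
  have x12' := mul_right_cancel₀ hA.n20 x12
  have hfix : w⁻¹ * gr A σ w ∈ zs F := by
    refine mem_zs.2 ⟨mul_mem (inv_mem hwu) hx, ?_, ?_⟩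
    · rw [(mul_upper (inv_mem hwu) hx).1, (inv_upper hwu).1, w01, x01']
      ring
    · rw [(mul_upper (inv_mem hwu) hx).2, (inv_upper hwu).2.1, w12, x12']
      ring
  have hzle : zs F ≤ upper 3 F := fun s hs => (mem_zs.1 hs).1
  have hxx : (pr (uu a 0 0))⁻¹ * lift (gr A σ) (pr (uu a 0 0)) = pr w := by
    rw [lift_pr, hw, map_mul]
    rfl
  have hfin := swap_lem h.ccp ((upper 3 F).map pr) ((zs F).map pr) (by
    rintro _ ⟨u, hu, rfl⟩
    exact ⟨_, (hA.upp σ hu).1, (lift_pr _ _).symm⟩) (by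
    rintro _ ⟨u, hu, rfl⟩
    obtain ⟨hu', u01, u12⟩ := mem_zs.1 hu
    obtain ⟨hy, y01, y12, -⟩ := hA.upp σ hu'
    rw [u12, map_zero, mul_zero, neg_zero] at y01
    rw [u01, map_zero, mul_zero, neg_zero] at y12
    exact ⟨_, mem_zs.2 ⟨hy, (mul_eq_zero.1 y01).resolve_right hA.n11, (mul_eq_zero.1 y12).resolve_right hA.n20⟩,
      (lift_pr _ _).symm⟩) (by
    rintro _ ⟨m, hm, rfl⟩ _ ⟨u, hu, rfl⟩
    obtain ⟨hu', u01, u12⟩ := mem_zs.1 hu
    refine ⟨m * u * m⁻¹, mem_zs.2 ⟨mul_mem (mul_mem hm hu') (inv_mem hm), ?_, ?_⟩, by rw [map_mul, map_mul]; rfl⟩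
    · rw [(mul_upper (mul_mem hm hu') (inv_mem hm)).1, (mul_upper hm hu').1, (inv_upper hm).1, u01]
      ring
    · rw [(mul_upper (mul_mem hm hu') (inv_mem hm)).2, (mul_upper hm hu').2, (inv_upper hm).2.1, u12]
      ring) (g := pr (uu a 0 0)) ⟨_, hg, rfl⟩ (by
    rw [hxx, lift_pr]
    exact ⟨w⁻¹ * gr A σ w, hfix, by rw [map_mul]; rfl⟩)
  rw [hxx] at hfin
  have hz := mem_zs.1 (pr_mem_map hzle hwu hfin)
  exact ⟨w01 ▸ hz.2.1, w12 ▸ hz.2.2⟩

/-- squares -/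
theorem exists_sq (hc : ∀ x : F, -x = x) (x : F) : ∃ y, y * y = x := by
  have h2 : (2 : F) = 0 := by
    have h3 := hc 1
    calc (2 : F) = 1 + 1 := by norm_num
      _ = -1 + 1 := by rw [h3]
      _ = 0 := by norm_num
  have : CharP F 2 := CharTwo.of_one_ne_zero_of_two_eq_zero one_ne_zero h2
  obtain ⟨y, hy⟩ := FiniteField.isSquare_of_char_two (F := F) (ringChar.eq F 2) x
  exact ⟨y, hy.symm⟩

theorem uu_zero_mul (s t : F) : (uu 0 0 s)⁻¹ * uu 0 0 t = uu 0 0 (t - s) := by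
  rw [inv_mul_eq_iff_eq_mul]
  apply Subtype.ext
  change !![1, 0, t; 0, 1, 0; 0, 0, 1] = !![1, 0, s; 0, 1, 0; 0, 0, 1] * !![1, 0, t - s; 0, 1, 0; 0, 0, 1]
  ext i j
  fin_cases i <;> fin_cases j <;> simp [Matrix.mul_apply, Fin.sum_univ_three]

/-- **no fixed elements in `U`** -/
theorem fix_upper (hc : ∀ x : F, -x = x) (h : Cfg (lift (gr A σ))) (hA : AT A) {s : SL3} (hs : s ∈ upper 3 F)
    (hf : lift (gr A σ) (pr s) = pr s) : s = 1 := by
  obtain ⟨hv, v01, v12, v02⟩ := hA.upp σ hs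
  rw [lift_pr] at hf
  have hf' := pr_injOn_upper hv hs hf
  rw [hf'] at v01 v12 v02
  obtain ⟨s01, s12⟩ := sec_false hc h hA v01 v12
  by_contra hne
  have hs' := eq_uu hs
  rw [s01, s12] at hs'
  set c := (s : M3) 0 2 with hcdef
  have hc0 : c ≠ 0 := by
    intro h0
    apply hne
    rw [hs', h0]
    apply Subtype.ext
    change !![(1 : F), 0, 0; 0, 1, 0; 0, 0, 1] = 1
    ext i j
    fin_cases i <;> fin_cases j <;> simp
  -- the action on the centre
  have hcen : ∀ t : F, ∃ t' : F, gr A σ (uu 0 0 t) = uu 0 0 t' ∧ t' * (A : M3) 2 0 = -((A : M3) 0 2 * σ t) := by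
    intro t
    obtain ⟨hy, y01, y12, y02⟩ := hA.upp σ (uu_mem 0 0 t)
    have g01 : (uu 0 0 t : M3) 0 1 = 0 := rfl
    have g12 : (uu 0 0 t : M3) 1 2 = 0 := rfl
    have g02 : (uu 0 0 t : M3) 0 2 = t := rfl
    rw [g12, map_zero, mul_zero, neg_zero] at y01
    rw [g01, map_zero, mul_zero, neg_zero] at y12
    have y01' := (mul_eq_zero.1 y01).resolve_right hA.n11
    have y12' := (mul_eq_zero.1 y12).resolve_right hA.n20
    rw [y01', g01, g12, g02, map_zero, mul_zero, neg_zero, zero_mul, zero_mul, zero_add, zero_add, zero_sub, map_neg,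
      mul_neg] at y02
    refine ⟨_, ?_, y02⟩
    have h1 := eq_uu hy
    rwa [y01', y12'] at h1
  have hall : ∀ t : F, t * (A : M3) 2 0 = -((A : M3) 0 2 * σ t) := by
    intro t
    obtain ⟨t', e, e'⟩ := hcen t
    by_cases htt : t' = t
    · rw [htt] at e'
      exact e'
    exfalso
    have hd : t' - t ≠ 0 := sub_ne_zero.2 htt
    obtain ⟨x, hx⟩ := exists_sq hc (c * (t' - t)⁻¹)
    have hx0 : x ≠ 0 := by
      rintro rfl
      rw [mul_zero] at hx
      exact mul_ne_zero hc0 (inv_ne_zero hd) hx.symm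
    let d : SL3 := ⟨!![x, 0, 0; 0, 1, 0; 0, 0, x⁻¹], by rw [Matrix.det_fin_three]; simp [hx0]⟩
    have hd2 : d * uu 0 0 (t' - t) * d⁻¹ = uu 0 0 c := by
      rw [mul_inv_eq_iff_eq_mul]
      apply Subtype.ext
      change !![x, 0, 0; 0, 1, 0; 0, 0, x⁻¹] * !![1, 0, t' - t; 0, 1, 0; 0, 0, 1] =
        !![1, 0, c; 0, 1, 0; 0, 0, 1] * !![x, 0, 0; 0, 1, 0; 0, 0, x⁻¹]
      have h3 : x * (t' - t) = c * x⁻¹ := by
        field_simp
        have h4 : x * x * (t' - t) = c := by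
          rw [hx, mul_assoc, inv_mul_cancel₀ hd, mul_one]
        rw [pow_two, ← h4]
      ext i j
      fin_cases i <;> fin_cases j <;> simp [Matrix.mul_apply, Fin.sum_univ_three, h3]
    have h5 := h.ccp.not_conj (g := pr (uu 0 0 t)) (k := pr d) (c := pr s) (by rw [lift_pr, hf']) (by
      rw [lift_pr, e, hs', ← hd2, ← uu_zero_mul, map_mul, map_mul, map_mul]
      rfl)
    apply hne
    rw [← map_one pr] at h5
    exact pr_injOn_upper hs (one_mem _) h5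
  -- `σ = 1`, `A 0 2 = - A 2 0`
  have h1 := hall 1
  rw [one_mul, map_one, mul_one] at h1
  have hσ : ∀ t, σ t = t := by
    intro t
    have h3 := hall t
    rw [h1, mul_neg, mul_comm] at h3
    have h4 : (A : M3) 0 2 * t = (A : M3) 0 2 * σ t := neg_injective h3
    exact (mul_left_cancel₀ hA.n02 h4).symm
  -- the element `a = 1`
  have hf2 := sec_false hc h hA (a := 1) (b := -((A : M3) 1 1 * ((A : M3) 2 0)⁻¹)) (by
    rw [hσ, h1, one_mul, mul_neg, ← mul_assoc, neg_neg, inv_neg, mul_neg, mul_comm ((A : M3) 0 2), mul_assoc,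
      mul_inv_cancel₀ hA.n02, mul_one, hc]) (by
    rw [hσ, mul_one, neg_mul, mul_assoc, inv_mul_cancel₀ hA.n20, mul_one])
  exact one_ne_zero hf2.1

/-- every element of `U` is `v⁻¹ α(v)`, `v ∈ U` -/
theorem upper_surj (hc : ∀ x : F, -x = x) (h : Cfg (lift (gr A σ))) (hA : AT A) {s : SL3} (hs : s ∈ upper 3 F) :
    ∃ v ∈ upper 3 F, s = v⁻¹ * gr A σ v := by
  let f : upper 3 F → upper 3 F := fun v => ⟨v.1⁻¹ * gr A σ v.1, mul_mem (inv_mem v.2) (hA.upp σ v.2).1⟩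
  have hinj : Function.Injective f := by
    intro v w hvw
    have h1 : v.1⁻¹ * gr A σ v.1 = w.1⁻¹ * gr A σ w.1 := congrArg Subtype.val hvw
    have h2 : gr A σ (w.1 * v.1⁻¹) = w.1 * v.1⁻¹ := by
      rw [map_mul, map_inv]
      calc gr A σ w.1 * (gr A σ v.1)⁻¹ = w.1 * (w.1⁻¹ * gr A σ w.1) * (gr A σ v.1)⁻¹ := by
            rw [mul_inv_cancel_left]
        _ = w.1 * (v.1⁻¹ * gr A σ v.1) * (gr A σ v.1)⁻¹ := by rw [h1]
        _ = w.1 * v.1⁻¹ := by rw [mul_assoc, mul_assoc, mul_inv_cancel, mul_one]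
    have h3 := fix_upper hc h hA (mul_mem w.2 (inv_mem v.2)) (by rw [lift_pr, h2])
    apply Subtype.ext
    rw [mul_inv_eq_one] at h3
    exact h3.symm
  have hsur := Finite.injective_iff_surjective.1 hinj
  obtain ⟨v, hv⟩ := hsur ⟨s, hs⟩
  exact ⟨v.1, v.2, (congrArg Subtype.val hv).symm⟩

/-- no fixed involutions -/
theorem no_invol (hc : ∀ x : F, -x = x) (h : Cfg (lift (gr A σ))) (hA : AT A)
    {t : Matrix.ProjectiveSpecialLinearGroup (Fin 3) F} (ht : t * t = 1) (hf : lift (gr A σ) t = t) : t = 1 := by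
  have h2 : (2 : F) = 0 := by
    have h3 := hc 1
    calc (2 : F) = 1 + 1 := by norm_num
      _ = -1 + 1 := by rw [h3]
      _ = 0 := by norm_num
  have : CharP F 2 := CharTwo.of_one_ne_zero_of_two_eq_zero one_ne_zero h2
  have : Fact (Nat.Prime 2) := ⟨Nat.prime_two⟩
  have hp : IsPGroup 2 (Subgroup.zpowers t) := by
    rw [IsPGroup.iff_orderOf]
    intro x
    have h3 : orderOf x ∣ 2 ^ 1 := by
      have h4 : orderOf x ∣ Nat.card (Subgroup.zpowers t) := orderOf_dvd_natCard x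
      rw [Nat.card_zpowers] at h4
      refine h4.trans ?_
      apply orderOf_dvd_of_pow_eq_one
      rw [pow_one, pow_two]
      exact ht
    obtain ⟨k, -, hk⟩ := (Nat.dvd_prime_pow Nat.prime_two).1 h3
    exact ⟨k, hk⟩
  obtain ⟨P, hP⟩ := hp.exists_le_sylow
  obtain ⟨U, hU⟩ := exists_sylow (F := F) 3 2
  obtain ⟨g, hg⟩ := MulAction.exists_smul_eq (Matrix.ProjectiveSpecialLinearGroup (Fin 3) F) P U
  have h3 : g * t * g⁻¹ ∈ (U : Subgroup (Matrix.ProjectiveSpecialLinearGroup (Fin 3) F)) := by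
    rw [← hg]
    exact ⟨t, hP (Subgroup.mem_zpowers t), rfl⟩
  rw [hU] at h3
  obtain ⟨s, hs, e⟩ := h3
  obtain ⟨v, hv, e2⟩ := upper_surj hc h hA hs
  apply h.ccp.not_conj (g := pr v) (k := g⁻¹) hf
  have e3 : (pr v)⁻¹ * lift (gr A σ) (pr v) = g * t * g⁻¹ := by
    rw [lift_pr, ← e, e2, map_mul]
    rfl
  rw [e3]
  group

/-- invertible anti-diagonal matrices -/
structure AD (A : GL (Fin 3) F) : Prop extends AT A where
  z00 : (A : M3) 0 0 = 0
  z01 : (A : M3) 0 1 = 0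
  z10 : (A : M3) 1 0 = 0

/-- a conjugate by an element of `U` is anti-diagonal -/
theorem exists_ad (hc : ∀ x : F, -x = x) (h : Cfg (lift (gr A σ))) (hA : AT A) :
    ∃ A' : GL (Fin 3) F, AD A' ∧ Cfg (lift (gr A' σ)) := by
  -- `A = v A₀`
  let v : SL3 := uu ((A : M3) 0 1 * ((A : M3) 1 1)⁻¹) ((A : M3) 1 0 * ((A : M3) 2 0)⁻¹) ((A : M3) 0 0 * ((A : M3) 2 0)⁻¹)
  have hv : v ∈ upper 3 F := uu_mem _ _ _
  let A₀ : M3 := !![0, 0, (A : M3) 0 2; 0, (A : M3) 1 1, 0; (A : M3) 2 0, 0, 0]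
  have hvA : (A : M3) = (v : M3) * A₀ := by
    change (A : M3) = !![1, (A : M3) 0 1 * ((A : M3) 1 1)⁻¹, (A : M3) 0 0 * ((A : M3) 2 0)⁻¹;
      0, 1, (A : M3) 1 0 * ((A : M3) 2 0)⁻¹; 0, 0, 1] * A₀
    ext i j
    fin_cases i <;> fin_cases j <;>
      simp [Matrix.mul_apply, Fin.sum_univ_three, A₀, hA.z12, hA.z21, hA.z22, hA.n11, hA.n20]
  obtain ⟨w, hw, e⟩ := upper_surj hc h hA (inv_mem hv)
  refine ⟨cA w⁻¹ A σ, ?_, ?_⟩
  · -- the matrix is `A₀`
    have hmat : (cA w⁻¹ A σ : M3) = A₀ := by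
      rw [coe_cA]
      have h1 := gr_rel A σ w
      have h2 : (((w⁻¹ : SL3) : M3)) * (gr A σ w : M3) = ((v⁻¹ : SL3) : M3) := by
        rw [← Matrix.SpecialLinearGroup.coe_mul, ← e]
      have h3 : ((v⁻¹ : SL3) : M3) * (v : M3) = 1 := by
        rw [← Matrix.SpecialLinearGroup.coe_mul, inv_mul_cancel, Matrix.SpecialLinearGroup.coe_one]
      calc ((w⁻¹ : SL3) : M3) * (A : M3) * (((w⁻¹ : SL3) : M3)ᵀ).map σ
          = ((w⁻¹ : SL3) : M3) * ((A : M3) * (((w⁻¹ : SL3) : M3)ᵀ).map σ) := by rw [mul_assoc]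
        _ = ((w⁻¹ : SL3) : M3) * ((gr A σ w : M3) * (A : M3)) := by rw [h1]
        _ = ((v⁻¹ : SL3) : M3) * (A : M3) := by rw [← mul_assoc, h2]
        _ = A₀ := by rw [hvA, ← mul_assoc, h3, one_mul]
    refine ⟨⟨?_, ?_, ?_, ?_, ?_, ?_⟩, ?_, ?_, ?_⟩ <;> rw [hmat]
    · rfl
    · rfl
    · rfl
    · exact hA.n02
    · exact hA.n11
    · exact hA.n20
    · rfl
    · rfl
    · rfl
  · rw [← conj_gr]
    exact h.congr _

/-- the diagonal matrices -/
def dg (F : Type) [Field F] [Finite F] : Subgroup (Matrix.SpecialLinearGroup (Fin 3) F) where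
  carrier := {s | ∀ i j, i ≠ j → (s : Matrix (Fin 3) (Fin 3) F) i j = 0}
  mul_mem' := by
    intro a b ha hb i j hij
    rw [Matrix.SpecialLinearGroup.coe_mul, Matrix.mul_apply]
    refine Finset.sum_eq_zero fun k _ => ?_
    by_cases hik : i = k
    · rw [← hik, hb i j hij, mul_zero]
    · rw [ha i k hik, zero_mul]
  one_mem' := by
    intro i j hij
    rw [Matrix.SpecialLinearGroup.coe_one, one_apply_ne hij]
  inv_mem' := by
    intro a ha i j hij
    have e : ((a⁻¹ : Matrix.SpecialLinearGroup (Fin 3) F) : Matrix (Fin 3) (Fin 3) F) * (a : Matrix (Fin 3) (Fin 3) F) = 1 := by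
      rw [← Matrix.SpecialLinearGroup.coe_mul, inv_mul_cancel, Matrix.SpecialLinearGroup.coe_one]
    have h1 := congrFun (congrFun e i) j
    rw [Matrix.mul_apply, Finset.sum_eq_single j, one_apply_ne hij] at h1
    · refine (mul_eq_zero.1 h1).resolve_right ?_
      intro h0
      have h2 := a.2
      rw [Matrix.det_fin_three] at h2
      have ha' : ∀ i j, i ≠ j → (a : Matrix (Fin 3) (Fin 3) F) i j = 0 := ha
      have h3 := ha' 0 1 (by decide)
      have h4 := ha' 0 2 (by decide)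
      have h5 := ha' 1 2 (by decide)
      have h6 := ha' 1 0 (by decide)
      have h7 := ha' 2 0 (by decide)
      have h8 := ha' 2 1 (by decide)
      fin_cases j <;> simp_all
    · intro k _ hk
      rw [ha k j hk, mul_zero]
    · intro h2
      exact absurd (Finset.mem_univ _) h2

theorem mem_dg {s : SL3} : s ∈ dg F ↔ ∀ i j, i ≠ j → (s : M3) i j = 0 := Iff.rfl

/-- the antidiagonal matrix -/
def w0 (hc : ∀ x : F, -x = x) : SL3 := ⟨!![0, 0, 1; 0, 1, 0; 1, 0, 0], by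
  rw [Matrix.det_fin_three]
  simp [hc]⟩

theorem w0_mul (hc : ∀ x : F, -x = x) : w0 hc * w0 hc = 1 := by
  apply Subtype.ext
  change !![(0 : F), 0, 1; 0, 1, 0; 1, 0, 0] * !![(0 : F), 0, 1; 0, 1, 0; 1, 0, 0] = 1
  ext i j
  fin_cases i <;> fin_cases j <;> simp [Matrix.mul_apply, Fin.sum_univ_three]

theorem AD.dg (hA : AD A) {s : SL3} (hs : s ∈ dg F) : gr A σ s ∈ dg F := by
  have hs' := mem_dg.1 hs
  have hi := mem_dg.1 (inv_mem hs)
  have htri : Tri (s : M3) := ⟨hs' 1 0 (by decide), hs' 2 0 (by decide), hs' 2 1 (by decide)⟩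
  obtain ⟨⟨t10, t20, t21⟩, -⟩ := hA.toAT.tri σ htri
  have hrel := gr_rel A σ s
  set t := gr A σ s with ht
  have key : ∀ i j, (t : M3) i 0 * (A : M3) 0 j + (t : M3) i 1 * (A : M3) 1 j + (t : M3) i 2 * (A : M3) 2 j =
      (A : M3) i 0 * σ (((s⁻¹ : SL3) : M3) j 0) + (A : M3) i 1 * σ (((s⁻¹ : SL3) : M3) j 1) +
        (A : M3) i 2 * σ (((s⁻¹ : SL3) : M3) j 2) := by
    intro i j
    have h1 := congrFun (congrFun hrel i) j
    rw [Matrix.mul_apply, Matrix.mul_apply, Fin.sum_univ_three, Fin.sum_univ_three] at h1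
    exact h1
  have k01 := key 0 1
  have k00 := key 0 0
  have k10 := key 1 0
  simp only [hA.z00, hA.z01, hA.z10, hA.z12, hA.z21, hi 1 2 (by decide), hi 0 2 (by decide), hi 0 1 (by decide), map_zero,
    mul_zero, zero_mul, add_zero, zero_add] at k01 k00 k10
  have t01 := (mul_eq_zero.1 k01).resolve_right hA.n11
  have t02 := (mul_eq_zero.1 k00).resolve_right hA.n20
  have t12 := (mul_eq_zero.1 k10).resolve_right hA.n20
  rw [mem_dg]
  intro i j hij
  fin_cases i <;> fin_cases j <;> first | exact absurd rfl hij | assumption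

theorem AD.w0 (hc : ∀ x : F, -x = x) (hA : AD A) : (Ccp.w0 hc)⁻¹ * gr A σ (Ccp.w0 hc) ∈ Ccp.dg F := by
  have hinv : (Ccp.w0 hc : SL3)⁻¹ = Ccp.w0 hc := inv_eq_of_mul_eq_one_left (w0_mul hc)
  have hrel := gr_rel A σ (Ccp.w0 hc)
  rw [hinv] at hrel ⊢
  set t := gr A σ (Ccp.w0 hc) with ht
  have key : ∀ i j, (t : M3) i 0 * (A : M3) 0 j + (t : M3) i 1 * (A : M3) 1 j + (t : M3) i 2 * (A : M3) 2 j =
      (A : M3) i 0 * σ ((Ccp.w0 hc : M3) j 0) + (A : M3) i 1 * σ ((Ccp.w0 hc : M3) j 1) +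
        (A : M3) i 2 * σ ((Ccp.w0 hc : M3) j 2) := by
    intro i j
    have h1 := congrFun (congrFun hrel i) j
    rw [Matrix.mul_apply, Matrix.mul_apply, Fin.sum_univ_three, Fin.sum_univ_three] at h1
    exact h1
  have e00 : (Ccp.w0 hc : M3) 0 0 = 0 := rfl
  have e01 : (Ccp.w0 hc : M3) 0 1 = 0 := rfl
  have e02 : (Ccp.w0 hc : M3) 0 2 = 1 := rfl
  have e10 : (Ccp.w0 hc : M3) 1 0 = 0 := rfl
  have e11 : (Ccp.w0 hc : M3) 1 1 = 1 := rfl
  have e12 : (Ccp.w0 hc : M3) 1 2 = 0 := rfl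
  have e20 : (Ccp.w0 hc : M3) 2 0 = 1 := rfl
  have e21 : (Ccp.w0 hc : M3) 2 1 = 0 := rfl
  have e22 : (Ccp.w0 hc : M3) 2 2 = 0 := rfl
  have k10 := key 1 0
  have k20 := key 2 0
  have k01 := key 0 1
  have k21 := key 2 1
  have k02 := key 0 2
  have k12 := key 1 2
  simp only [hA.z00, hA.z01, hA.z10, hA.z12, hA.z21, hA.z22, e00, e01, e02, e10, e11, e12, e20, e21, e22, map_zero,
    mul_zero, zero_mul, add_zero, zero_add] at k10 k20 k01 k21 k02 k12
  have t12 := (mul_eq_zero.1 k10).resolve_right hA.n20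
  have t22 := (mul_eq_zero.1 k20).resolve_right hA.n20
  have t01 := (mul_eq_zero.1 k01).resolve_right hA.n11
  have t21 := (mul_eq_zero.1 k21).resolve_right hA.n11
  have t00 := (mul_eq_zero.1 k02).resolve_right hA.n02
  have t10 := (mul_eq_zero.1 k12).resolve_right hA.n02
  rw [mem_dg]
  intro i j hij
  rw [Matrix.SpecialLinearGroup.coe_mul, Matrix.mul_apply, Fin.sum_univ_three]
  fin_cases i <;> fin_cases j <;> first | exact absurd rfl hij | simp [e00, e01, e02, e10, e11, e12, e20, e21, e22, t12,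
    t22, t01, t21, t00, t10]

theorem w0_conj (hc : ∀ x : F, -x = x) {s : SL3} (hs : s ∈ dg F) : w0 hc * s * (w0 hc)⁻¹ ∈ dg F := by
  have hs' := mem_dg.1 hs
  have hinv : (w0 hc : SL3)⁻¹ = w0 hc := inv_eq_of_mul_eq_one_left (w0_mul hc)
  rw [hinv, mem_dg]
  have e00 : (Ccp.w0 hc : M3) 0 0 = 0 := rfl
  have e01 : (Ccp.w0 hc : M3) 0 1 = 0 := rfl
  have e02 : (Ccp.w0 hc : M3) 0 2 = 1 := rfl
  have e10 : (Ccp.w0 hc : M3) 1 0 = 0 := rfl
  have e11 : (Ccp.w0 hc : M3) 1 1 = 1 := rfl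
  have e12 : (Ccp.w0 hc : M3) 1 2 = 0 := rfl
  have e20 : (Ccp.w0 hc : M3) 2 0 = 1 := rfl
  have e21 : (Ccp.w0 hc : M3) 2 1 = 0 := rfl
  have e22 : (Ccp.w0 hc : M3) 2 2 = 0 := rfl
  have h01 := hs' 0 1 (by decide)
  have h02 := hs' 0 2 (by decide)
  have h12 := hs' 1 2 (by decide)
  have h10 := hs' 1 0 (by decide)
  have h20 := hs' 2 0 (by decide)
  have h21 := hs' 2 1 (by decide)
  intro i j hij
  rw [Matrix.SpecialLinearGroup.coe_mul, Matrix.SpecialLinearGroup.coe_mul, Matrix.mul_apply, Fin.sum_univ_three,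
    Matrix.mul_apply, Matrix.mul_apply, Matrix.mul_apply, Fin.sum_univ_three, Fin.sum_univ_three, Fin.sum_univ_three]
  fin_cases i <;> fin_cases j <;> first | exact absurd rfl hij | simp [e00, e01, e02, e10, e11, e12, e20, e21, e22, h01,
    h02, h12, h10, h20, h21]

/-- **characteristic two** -/
theorem even_false (hc : ∀ x : F, -x = x) (h : Cfg (lift (gr A σ))) (hA : AT A) : False := by
  obtain ⟨A', hA', h'⟩ := exists_ad hc h hA
  clear h hA
  set α := lift (gr A' σ) with hα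
  set N : Subgroup (Matrix.ProjectiveSpecialLinearGroup (Fin 3) F) := (dg F).map pr with hNdef
  have hN : ∀ m ∈ N, α m ∈ N := by
    rintro _ ⟨u, hu, rfl⟩
    exact ⟨_, hA'.dg hu, (lift_pr _ _).symm⟩
  set x : Matrix.ProjectiveSpecialLinearGroup (Fin 3) F := pr (w0 hc) with hx
  have hxx : x * x = 1 := by rw [hx, ← map_mul, w0_mul, map_one]
  have hxinv : x⁻¹ = x := inv_eq_of_mul_eq_one_left hxx
  have hconj : ∀ m ∈ N, x * m * x⁻¹ ∈ N := by
    rintro _ ⟨u, hu, rfl⟩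
    exact ⟨_, w0_conj hc hu, by rw [map_mul, map_mul]; rfl⟩
  have hxM : x ∈ Subgroup.normalizer (N : Set (Matrix.ProjectiveSpecialLinearGroup (Fin 3) F)) := by
    rw [Subgroup.mem_normalizer_iff]
    intro y
    refine ⟨fun hy => hconj y hy, fun hy => ?_⟩
    have h1 := hconj _ hy
    rw [hxinv] at h1
    have h5 : x * (x * y * x) * x = y := by
      calc x * (x * y * x) * x = (x * x) * y * (x * x) := by simp only [mul_assoc]
        _ = y := by rw [hxx, one_mul, mul_one]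
    rw [h5] at h1
    exact h1
  have hxα : x⁻¹ * α x ∈ N := ⟨_, hA'.w0 hc, by rw [map_mul]; rfl⟩
  set M := Subgroup.normalizer (N : Set (Matrix.ProjectiveSpecialLinearGroup (Fin 3) F)) with hM
  have hMi := normalizer_inv hN
  have hMn : ∀ m ∈ M, ∀ n ∈ N, m * n * m⁻¹ ∈ N := fun m hm n hn => (Subgroup.mem_normalizer_iff.1 hm n).1 hn
  have hN'n : (N.subgroupOf M).Normal := ⟨fun n hn' m => by
    rw [Subgroup.mem_subgroupOf] at hn' ⊢
    exact hMn _ m.2 _ hn'⟩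
  obtain ⟨c, hcf, hcx⟩ := (h'.ccp.res M hMi).fix_quo (N.subgroupOf M) (by
    intro m hm
    rw [Subgroup.mem_subgroupOf] at hm ⊢
    exact hN _ hm) (x := ⟨x, hxM⟩) (Subgroup.mem_subgroupOf.2 hxα)
  have hcf' : α c.1 = c.1 := congrArg Subtype.val hcf
  have hcx' : c.1⁻¹ * x ∈ N := Subgroup.mem_subgroupOf.1 hcx
  -- `c ∉ N`
  have hxN : x ∉ N := by
    rintro ⟨d, hd, e⟩
    obtain ⟨k, hk⟩ := exists_smul_of_pr_eq e
    have h1 := congrFun (congrFun hk 0) 2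
    rw [Matrix.smul_apply, mem_dg.1 hd 0 2 (by decide), smul_zero] at h1
    have h2 : (w0 hc : M3) 0 2 = 1 := rfl
    rw [h2] at h1
    exact one_ne_zero h1
  have hcN : c.1 ∉ N := by
    intro h1
    apply hxN
    have h2 := mul_mem h1 hcx'
    rwa [mul_inv_cancel_left] at h2
  have hcc : c.1 * c.1 ∈ N := by
    set m := (c.1⁻¹ * x)⁻¹ with hm
    have hmN : m ∈ N := inv_mem hcx'
    have h1 : c.1 = x * m := by
      rw [hm, _root_.mul_inv_rev, inv_inv, mul_inv_cancel_left]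
    have h2 : c.1 * c.1 = (x * m * x⁻¹) * m := by
      rw [h1, hxinv]
      simp only [mul_assoc]
    rw [h2]
    exact mul_mem (hconj m hmN) hmN
  -- the order of `c` is even
  have hev : 2 ∣ orderOf c.1 := by
    by_contra hodd
    apply hcN
    have h1 : Odd (orderOf c.1) := by
      rw [← Nat.not_even_iff_odd, even_iff_two_dvd]
      exact hodd
    obtain ⟨k, hk⟩ := h1
    have h2 : c.1 = (c.1 * c.1) ^ (k + 1) := by
      rw [← pow_two, ← pow_mul]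
      have h3 : 2 * (k + 1) = orderOf c.1 + 1 := by omega
      rw [h3, pow_succ, pow_orderOf_eq_one, one_mul]
    rw [h2]
    exact pow_mem hcc _
  obtain ⟨k, hk⟩ := hev
  have hpos := orderOf_pos c.1
  have h1 : c.1 ^ k * c.1 ^ k = 1 := by
    rw [← pow_add, ← two_mul, ← hk, pow_orderOf_eq_one]
  have h2 : c.1 ^ k = 1 := no_invol hc h' hA'.toAT h1 (by rw [← hα, map_pow, hcf'])
  have h3 := orderOf_dvd_of_pow_eq_one h2
  have h4 := Nat.le_of_dvd (by omega) h3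
  omega

end Even

/-- **PSL_3** : a correlation normalising a Sylow `r`-subgroup, `r` the characteristic, is not a minimal configuration. -/
theorem psl3_corr [Fintype F] {r : ℕ} [Fact r.Prime] [CharP F r]
    {α : MulAut (Matrix.ProjectiveSpecialLinearGroup (Fin 3) F)} (h : Cfg α)
    (hc : ∃ (A : GL (Fin 3) F) (σ : F ≃+* F), α = lift (cj A * fld σ * itr))
    (S : Sylow r (Matrix.ProjectiveSpecialLinearGroup (Fin 3) F)) (hS : ∀ m ∈ S, α m ∈ S) : False := by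
  obtain ⟨A, σ, rfl⟩ := hc
  obtain ⟨A', h', hU⟩ := exists_upper (A := A) (σ := σ) h S hS
  by_cases h2 : (2 : F) = 0
  · refine even_false (fun x => ?_) h' (at_of hU)
    have h3 : x + x = 0 := by rw [← two_mul, h2, zero_mul]
    exact neg_eq_of_add_eq_zero_left h3
  · exact odd_false h2 h' hU

end Cfsg.Agent.H272.Ccp
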