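import Cfsg.Agent.H139.Bruhat
import Cfsg.Agent.H272.Ccp.PslThree
import Cfsg.Agent.H272.Ccp.PslFour
import Cfsg.Agent.H520.CcpNE0
import Cfsg.Agent.ClassicalGeometry.AutPSL.Main

/-!
# S4114: `NoSwap r (PSL_n(F))`, `n = 3`, and `n = 4`, `|F| = 3` (helper272)

* `dbl` : `X g Y ∈ B g B` for `g ∈ SL_n`, `X`, `Y` upper triangular with `det X det Y = 1` (`B` the upper triangular
  matrices of determinant 1); from the Bruhat decomposition;
* `fix_over` : an automorphism without graph part which normalises a Sylow `r`-subgroup (`r` the characteristic) fixes all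
  subgroups above the normaliser;
* `noswap_psl3`, `noswap_psl4_three`.
-/

set_option autoImplicit false
set_option linter.unusedSectionVars false

namespace Cfsg.Agent.H272.Ccp

open Matrix Cfsg.Agent.H520
open Cfsg.Agent.ClassicalGeometry.AutPSL.Root Cfsg.Agent.ClassicalGeometry.AutPSL.Auto
open Cfsg.Agent.ClassicalGeometry.AutPSL.SylowU

section Generic

/-- an automorphism stabilising a subgroup of a finite group stabilises its normalizer -/
theorem norm_of {G : Type*} [Group G] [Finite G] {α : MulAut G} {U : Subgroup G} (hU : ∀ m ∈ U, α m ∈ U) :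
    ∀ b ∈ Subgroup.normalizer (U : Set G), α b ∈ Subgroup.normalizer (U : Set G) := normalizer_inv hU

/-- two overgroups exchanged by an automorphism and both fixed by it are equal -/
theorem eq_of_fix_swap {G : Type*} [Group G] [Finite G] {α : MulAut G} {M₁ M₂ : Subgroup G}
    (hsw : ∀ m ∈ M₁, α m ∈ M₂) (hsw' : ∀ m ∈ M₂, α m ∈ M₁) (h1 : ∀ m ∈ M₁, α m ∈ M₁) (h2 : ∀ m ∈ M₂, α m ∈ M₂) :
    M₁ = M₂ := by
  have key : ∀ {A B : Subgroup G}, (∀ m ∈ A, α m ∈ A) → (∀ m ∈ A, α m ∈ B) → A ≤ B := by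
    intro A B hA hB
    have hmap : A.map α.toMonoidHom = A := by
      refine Subgroup.eq_of_le_of_card_ge ?_ ?_
      · rintro _ ⟨b, hb, rfl⟩
        exact hA b hb
      · exact (Nat.card_congr (A.equivMapOfInjective α.toMonoidHom α.injective).toEquiv).le
    intro a ha
    rw [← hmap] at ha
    obtain ⟨b, hb, rfl⟩ := ha
    exact hB b hb
  exact le_antisymm (key h1 hsw) (key h2 hsw')

/-- transport along an isomorphism -/
theorem noSwap_congr {K G : Type*} [Group K] [Group G] {r : ℕ} [Fact r.Prime] [Finite G] (e : K ≃* G)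
    (h : NoSwap r G) : NoSwap r K := by
  intro α hα U hU M₁ M₂ h1 h2 hne ht1 ht2 hsw hsw'
  have hfK : Finite K := Finite.of_equiv G e.symm.toEquiv
  set U' : Sylow r G := U.mapSurjective (f := e.toMonoidHom) e.surjective with hU'
  have hcoe : (U' : Subgroup G) = (U : Subgroup K).map e.toMonoidHom := rfl
  have hN : Subgroup.normalizer ((U' : Subgroup G) : Set G) =
      (Subgroup.normalizer ((U : Subgroup K) : Set K)).map e.toMonoidHom := by
    rw [hcoe]
    exact (Subgroup.map_equiv_normalizer_eq (U : Subgroup K) e).symm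
  have hinj : Function.Injective (Subgroup.map e.toMonoidHom) := Subgroup.map_injective e.injective
  have hlt : ∀ {A B : Subgroup K}, A < B → A.map e.toMonoidHom < B.map e.toMonoidHom := by
    intro A B hAB
    exact lt_of_le_of_ne (Subgroup.map_mono hAB.le) (fun h3 => hAB.ne (hinj h3))
  have htop : ∀ {A : Subgroup K}, A ≠ ⊤ → A.map e.toMonoidHom ≠ ⊤ := by
    intro A hA h3
    apply hA
    apply hinj
    rw [h3, Subgroup.map_top_of_surjective _ e.surjective]
  have hmap : ∀ {A B : Subgroup K}, (∀ m ∈ A, α m ∈ B) → ∀ m ∈ A.map e.toMonoidHom,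
      MulAut.congr e α m ∈ B.map e.toMonoidHom := by
    rintro A B hAB _ ⟨m, hm, rfl⟩
    refine ⟨α m, hAB m hm, ?_⟩
    show e (α m) = MulAut.congr e α (e m)
    rw [congr_ap]
  refine h (MulAut.congr e α) (hα.congr e) U' ?_ (M₁.map e.toMonoidHom) (M₂.map e.toMonoidHom) ?_ ?_ ?_ (htop ht1)
    (htop ht2) (hmap hsw) (hmap hsw')
  · rw [hcoe]
    exact hmap hU
  · rw [hN]
    exact hlt h1
  · rw [hN]
    exact hlt h2
  · intro h3
    exact hne (hinj h3)

/-- transport to another Sylow subgroup -/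
theorem fix_of_conj {G : Type*} [Group G] {r : ℕ} {α : MulAut G} {S U : Sylow r G} {x : G} (hx : x • S = U)
    (hfix : ∀ M : Subgroup G, Subgroup.normalizer ((U : Subgroup G) : Set G) ≤ M →
      ∀ m ∈ M, MulAut.congr (MulAut.conj x) α m ∈ M) {M : Subgroup G}
    (hM : Subgroup.normalizer ((S : Subgroup G) : Set G) ≤ M) : ∀ m ∈ M, α m ∈ M := by
  intro m hm
  have hcoe : (U : Subgroup G) = (S : Subgroup G).map (MulAut.conj x).toMonoidHom := by
    rw [← hx]
    rfl
  have hN : Subgroup.normalizer ((U : Subgroup G) : Set G) =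
      (Subgroup.normalizer ((S : Subgroup G) : Set G)).map (MulAut.conj x).toMonoidHom := by
    rw [hcoe]
    exact (Subgroup.map_equiv_normalizer_eq (S : Subgroup G) (MulAut.conj x)).symm
  obtain ⟨m', hm', e⟩ := hfix (M.map (MulAut.conj x).toMonoidHom) (by rw [hN]; exact Subgroup.map_mono hM)
    (MulAut.conj x m) ⟨m, hm, rfl⟩
  rw [congr_ap] at e
  have : m' = α m := (MulAut.conj x).injective e
  rw [← this]
  exact hm'

end Generic

variable {F : Type} [Field F] {n : ℕ}

/-- an element of `GL_n` of determinant one -/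
def slOf (X : GL (Fin n) F) (h : (X : Matrix (Fin n) (Fin n) F).det = 1) : Matrix.SpecialLinearGroup (Fin n) F := ⟨X, h⟩

theorem toGL_slOf (X : GL (Fin n) F) (h : (X : Matrix (Fin n) (Fin n) F).det = 1) :
    Matrix.SpecialLinearGroup.toGL (slOf X h) = X := Units.ext rfl

/-- `diag(c, 1, …, 1)` -/
noncomputable def dgl (i₀ : Fin n) (c : Fˣ) : GL (Fin n) F :=
  ⟨diagonal (Function.update 1 i₀ (c : F)), diagonal (Function.update 1 i₀ ((c⁻¹ : Fˣ) : F)), by
    rw [diagonal_mul_diagonal, ← diagonal_one]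
    congr 1
    funext i
    rcases eq_or_ne i i₀ with rfl | hi
    · simp
    · simp [Function.update_of_ne hi], by
    rw [diagonal_mul_diagonal, ← diagonal_one]
    congr 1
    funext i
    rcases eq_or_ne i i₀ with rfl | hi
    · simp
    · simp [Function.update_of_ne hi]⟩

theorem det_dgl (i₀ : Fin n) (c : Fˣ) : ((dgl i₀ c : GL (Fin n) F) : Matrix (Fin n) (Fin n) F).det = c := by
  show (diagonal (Function.update 1 i₀ (c : F))).det = c
  rw [det_diagonal, Finset.prod_update_of_mem (Finset.mem_univ _)]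
  simp

/-- conjugates of diagonal matrices by permutation matrices are upper triangular -/
theorem perm_diag (σ : Equiv.Perm (Fin n)) (d : GL (Fin n) F)
    (hd : ∀ i j, i ≠ j → (d : Matrix (Fin n) (Fin n) F) i j = 0) :
    (Cfsg.Agent.H139.Bruhat.permGL F n σ)⁻¹ * d * Cfsg.Agent.H139.Bruhat.permGL F n σ ∈ Cfsg.upperTriangularGL n F := by
  show ((((Cfsg.Agent.H139.Bruhat.permGL F n σ)⁻¹ * d * Cfsg.Agent.H139.Bruhat.permGL F n σ : GL (Fin n) F)) :
    Matrix (Fin n) (Fin n) F).BlockTriangular id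
  intro i j hij
  have hij' : j < i := hij
  rw [← map_inv, mul_assoc, Units.val_mul, Cfsg.Agent.H139.Bruhat.permGL_mul_apply, Units.val_mul, mul_apply,
    Finset.sum_eq_single (σ i)]
  · rw [inv_inv, Cfsg.Agent.H139.Bruhat.coe_permGL, Equiv.Perm.permMatrix]
    have h1 : (σ⁻¹ : Equiv.Perm (Fin n)).toPEquiv.toMatrix (α := F) (σ i) j = 0 := by
      rw [PEquiv.toMatrix_apply, if_neg]
      intro h2
      rw [Equiv.toPEquiv_apply, Option.mem_some_iff] at h2
      have h3 : (σ⁻¹ : Equiv.Perm (Fin n)) (σ i) = i := by simp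
      rw [h3] at h2
      exact hij'.ne h2.symm
    rw [h1, mul_zero]
  · intro k _ hk
    rw [inv_inv, hd _ _ (Ne.symm hk), zero_mul]
  · intro h
    exact absurd (Finset.mem_univ _) h

/-- `X g Y ∈ B g B` -/
theorem dbl {X Y : GL (Fin n) F} (hX : X ∈ Cfsg.upperTriangularGL n F) (hY : Y ∈ Cfsg.upperTriangularGL n F)
    (hXY : (X : Matrix (Fin n) (Fin n) F).det * (Y : Matrix (Fin n) (Fin n) F).det = 1) (g : GL (Fin n) F) :
    ∃ b b' : Matrix.SpecialLinearGroup (Fin n) F, Matrix.SpecialLinearGroup.toGL b ∈ Cfsg.upperTriangularGL n F ∧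
      Matrix.SpecialLinearGroup.toGL b' ∈ Cfsg.upperTriangularGL n F ∧
      X * g * Y = Matrix.SpecialLinearGroup.toGL b * g * Matrix.SpecialLinearGroup.toGL b' := by
  rcases Nat.eq_zero_or_pos n with hn | hn
  · subst hn
    exact ⟨1, 1, by rw [map_one]; exact one_mem _, by rw [map_one]; exact one_mem _, Subsingleton.elim _ _⟩
  obtain ⟨u, hu, σ, v, hv, rfl⟩ := Cfsg.Agent.H139.Bruhat.bruhat g
  set P := Cfsg.Agent.H139.Bruhat.permGL F n σ with hP
  let i₀ : Fin n := ⟨0, hn⟩
  let δ : Fˣ := Units.mk0 _ (left_ne_zero_of_mul_eq_one hXY)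
  have hδ : (δ : F) = (X : Matrix (Fin n) (Fin n) F).det := rfl
  set d : GL (Fin n) F := dgl i₀ δ with hd
  have hdiag : ∀ i j, i ≠ j → (d : Matrix (Fin n) (Fin n) F) i j = 0 := fun i j hij => diagonal_apply_ne _ hij
  have hdU : d ∈ Cfsg.upperTriangularGL n F := by
    show (d : Matrix (Fin n) (Fin n) F).BlockTriangular id
    intro i j hij
    exact hdiag _ _ (ne_of_gt hij)
  have hdet : (d : Matrix (Fin n) (Fin n) F).det = (X : Matrix (Fin n) (Fin n) F).det := by
    rw [hd, det_dgl, hδ]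
  have hdet' : Matrix.GeneralLinearGroup.det d = Matrix.GeneralLinearGroup.det X := Units.ext hdet
  have hXY' : Matrix.GeneralLinearGroup.det X * Matrix.GeneralLinearGroup.det Y = 1 := Units.ext hXY
  -- `X g Y = (X d⁻¹ (d u d⁻¹ u⁻¹)) (u P v) (v⁻¹ (P⁻¹ d P) v Y)`
  set L : GL (Fin n) F := X * d⁻¹ * (d * u * d⁻¹ * u⁻¹) with hL
  set R : GL (Fin n) F := v⁻¹ * (P⁻¹ * d * P) * v * Y with hR
  have hLU : L ∈ Cfsg.upperTriangularGL n F :=
    mul_mem (mul_mem hX (inv_mem hdU)) (mul_mem (mul_mem (mul_mem hdU hu) (inv_mem hdU)) (inv_mem hu))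
  have hRU : R ∈ Cfsg.upperTriangularGL n F :=
    mul_mem (mul_mem (mul_mem (inv_mem hv) (perm_diag σ d hdiag)) hv) hY
  have hLd : (L : Matrix (Fin n) (Fin n) F).det = 1 := by
    have h1 : Matrix.GeneralLinearGroup.det L = 1 := by
      rw [hL]
      simp only [map_mul, map_inv, hdet']
      have h2 : ∀ a c : Fˣ, a * a⁻¹ * (a * c * a⁻¹ * c⁻¹) = 1 := by
        intro a c
        rw [mul_inv_cancel, one_mul, mul_right_comm a c a⁻¹, mul_inv_cancel, one_mul, mul_inv_cancel]
      exact h2 _ _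
    exact congrArg Units.val h1
  have hRd : (R : Matrix (Fin n) (Fin n) F).det = 1 := by
    have h1 : Matrix.GeneralLinearGroup.det R = 1 := by
      rw [hR]
      simp only [map_mul, map_inv, hdet']
      rw [← hXY']
      have h2 : ∀ a b c e : Fˣ, a⁻¹ * (b⁻¹ * c * b) * a * e = c * e := by
        intro a b c e
        rw [mul_right_comm b⁻¹ c b, inv_mul_cancel, one_mul, mul_right_comm a⁻¹ c a, inv_mul_cancel, one_mul]
      exact h2 _ _ _ _
    exact congrArg Units.val h1
  refine ⟨slOf L hLd, slOf R hRd, ?_, ?_, ?_⟩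
  · rw [toGL_slOf]; exact hLU
  · rw [toGL_slOf]; exact hRU
  · rw [toGL_slOf, toGL_slOf, hL, hR]
    group

/-- `s ↦ A s^σ A⁻¹` -/
def nf (A : GL (Fin n) F) (σ : F ≃+* F) : MulAut (Matrix.SpecialLinearGroup (Fin n) F) := cj A * fld σ

theorem toGL_nf (A : GL (Fin n) F) (σ : F ≃+* F) (s : Matrix.SpecialLinearGroup (Fin n) F) :
    Matrix.SpecialLinearGroup.toGL (nf A σ s) = A * Matrix.SpecialLinearGroup.toGL (fld σ s) * A⁻¹ := Units.ext rfl

/-- the field automorphism on `GL_n` -/
def gm (σ : F ≃+* F) : GL (Fin n) F →* GL (Fin n) F := Matrix.GeneralLinearGroup.map (σ : F →+* F)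

theorem gm_apply (σ : F ≃+* F) (X : GL (Fin n) F) (i j : Fin n) :
    (gm σ X : Matrix (Fin n) (Fin n) F) i j = σ ((X : Matrix (Fin n) (Fin n) F) i j) := rfl

theorem gm_toGL (σ : F ≃+* F) (s : Matrix.SpecialLinearGroup (Fin n) F) :
    Matrix.SpecialLinearGroup.toGL (fld σ s) = gm σ (Matrix.SpecialLinearGroup.toGL s) := Units.ext rfl

theorem gm_mem (σ : F ≃+* F) {X : GL (Fin n) F} (h : X ∈ Cfsg.upperTriangularGL n F) :
    gm σ X ∈ Cfsg.upperTriangularGL n F := by
  show (gm σ X : Matrix (Fin n) (Fin n) F).BlockTriangular id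
  intro i j hij
  rw [gm_apply]
  have h1 : (X : Matrix (Fin n) (Fin n) F) i j = 0 := h hij
  rw [h1, map_zero]

theorem gm_perm (σ : F ≃+* F) (τ : Equiv.Perm (Fin n)) :
    gm σ (Cfsg.Agent.H139.Bruhat.permGL F n τ) = Cfsg.Agent.H139.Bruhat.permGL F n τ := by
  apply Units.ext
  ext i j
  show σ ((Cfsg.Agent.H139.Bruhat.permGL F n τ : Matrix (Fin n) (Fin n) F) i j) = _
  rw [Cfsg.Agent.H139.Bruhat.coe_permGL, Equiv.Perm.permMatrix, PEquiv.toMatrix_apply]
  split_ifs <;> simp

/-- the value at `g` is in `B g B` -/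
theorem nf_dbl {A : GL (Fin n) F} (hA : A ∈ Cfsg.upperTriangularGL n F) (σ : F ≃+* F)
    (s : Matrix.SpecialLinearGroup (Fin n) F) :
    ∃ b b' : Matrix.SpecialLinearGroup (Fin n) F, Matrix.SpecialLinearGroup.toGL b ∈ Cfsg.upperTriangularGL n F ∧
      Matrix.SpecialLinearGroup.toGL b' ∈ Cfsg.upperTriangularGL n F ∧ nf A σ s = b * s * b' := by
  obtain ⟨u, hu, τ, v, hv, hs⟩ := Cfsg.Agent.H139.Bruhat.bruhat (Matrix.SpecialLinearGroup.toGL s)
  have hX : A * gm σ u * u⁻¹ ∈ Cfsg.upperTriangularGL n F := mul_mem (mul_mem hA (gm_mem σ hu)) (inv_mem hu)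
  have hY : v⁻¹ * gm σ v * A⁻¹ ∈ Cfsg.upperTriangularGL n F := mul_mem (mul_mem (inv_mem hv) (gm_mem σ hv)) (inv_mem hA)
  have heq : Matrix.SpecialLinearGroup.toGL (nf A σ s) =
      (A * gm σ u * u⁻¹) * Matrix.SpecialLinearGroup.toGL s * (v⁻¹ * gm σ v * A⁻¹) := by
    rw [toGL_nf, gm_toGL, hs, map_mul, map_mul, gm_perm]
    group
  have hdt : ((A * gm σ u * u⁻¹ : GL (Fin n) F) : Matrix (Fin n) (Fin n) F).det *
      ((v⁻¹ * gm σ v * A⁻¹ : GL (Fin n) F) : Matrix (Fin n) (Fin n) F).det = 1 := by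
    have h1 := congrArg Matrix.GeneralLinearGroup.det heq
    have h2 : ∀ t : Matrix.SpecialLinearGroup (Fin n) F,
        Matrix.GeneralLinearGroup.det (Matrix.SpecialLinearGroup.toGL t) = 1 := fun t => Units.ext t.2
    rw [map_mul, map_mul, h2, h2, mul_one] at h1
    exact (congrArg Units.val h1).symm
  obtain ⟨b, b', h1, h2, h3⟩ := dbl hX hY hdt (Matrix.SpecialLinearGroup.toGL s)
  refine ⟨b, b', h1, h2, ?_⟩
  apply Matrix.SpecialLinearGroup.toGL_injective
  rw [heq, h3, map_mul, map_mul]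

/-- `A` is upper triangular -/
theorem nf_up [Finite F] {A : GL (Fin n) F} {σ : F ≃+* F} (h : ∀ u ∈ upper n F, nf A σ u ∈ upper n F) :
    A ∈ Cfsg.upperTriangularGL n F := by
  show (A : Matrix (Fin n) (Fin n) F).BlockTriangular id
  have key : ∀ (d : ℕ) (k : Fin n), n - 1 - (k : ℕ) = d → ∀ m : Fin n, m < k →
      (A : Matrix (Fin n) (Fin n) F) k m = 0 := by
    intro d
    induction d using Nat.strong_induction_on with
    | _ d ih =>
      intro k hk m hmk
      have hmk' : (m : ℕ) < k := hmk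
      let j : Fin n := ⟨(m : ℕ) + 1, by have := k.2; omega⟩
      have hij : m < j := by
        rw [Fin.lt_def]
        show (m : ℕ) < m + 1
        omega
      have h1 := h _ (transvection_mem_upper hij (1 : F))
      have h2 : ((nf A σ (Matrix.SpecialLinearGroup.transvection hij.ne (1 : F)) : Matrix.SpecialLinearGroup (Fin n) F) :
          Matrix (Fin n) (Fin n) F) * (A : Matrix (Fin n) (Fin n) F) =
          (A : Matrix (Fin n) (Fin n) F) * (1 + single m j (1 : F)) := by
        have e1 : fld σ (Matrix.SpecialLinearGroup.transvection hij.ne (1 : F)) =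
            Matrix.SpecialLinearGroup.transvection hij.ne (1 : F) := by
          rw [fld_transvection, map_one]
        have e2 : nf A σ (Matrix.SpecialLinearGroup.transvection hij.ne (1 : F)) =
          cj A (fld σ (Matrix.SpecialLinearGroup.transvection hij.ne (1 : F))) := rfl
        rw [e2, e1, coe_cj, mul_assoc, ← Units.val_mul, inv_mul_cancel, Units.val_one, mul_one]
        rfl
      set w := nf A σ (Matrix.SpecialLinearGroup.transvection hij.ne (1 : F)) with hw
      have h4 := congrFun (congrFun h2 k) j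
      rw [mul_add, mul_one, Matrix.add_apply, Matrix.mul_single_apply_same, mul_one, Matrix.mul_apply,
        Finset.sum_eq_single k] at h4
      · rw [h1 k k le_rfl, if_pos rfl, one_mul] at h4
        have h6 : (A : Matrix (Fin n) (Fin n) F) k j = (A : Matrix (Fin n) (Fin n) F) k j +
          (A : Matrix (Fin n) (Fin n) F) k m := h4
        exact (left_eq_add.1 h6)
      · intro l _ hl
        rcases lt_or_gt_of_ne hl with h5 | h5
        · rw [h1 k l h5.le, if_neg (Ne.symm hl), zero_mul]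
        · have h6 : (A : Matrix (Fin n) (Fin n) F) l j = 0 := by
            have h5' : (k : ℕ) < l := h5
            refine ih (n - 1 - (l : ℕ)) ?_ l rfl j ?_
            · have := l.2
              omega
            · show (m : ℕ) + 1 < l
              omega
          rw [h6, mul_zero]
      · intro h5
        exact absurd (Finset.mem_univ _) h5
  intro i j hij
  exact key _ i rfl j hij

/-- the image of the upper triangular matrices normalises the image of the unitriangular ones -/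
theorem up_le_norm [Finite F] {b : Matrix.SpecialLinearGroup (Fin n) F}
    (hb : Matrix.SpecialLinearGroup.toGL b ∈ Cfsg.upperTriangularGL n F) :
    pr b ∈ Subgroup.normalizer (((upper n F).map pr : Subgroup (Matrix.ProjectiveSpecialLinearGroup (Fin n) F)) :
      Set (Matrix.ProjectiveSpecialLinearGroup (Fin n) F)) := by
  have key : ∀ b : Matrix.SpecialLinearGroup (Fin n) F, Matrix.SpecialLinearGroup.toGL b ∈ Cfsg.upperTriangularGL n F →
      ∀ u ∈ upper n F, b * u * b⁻¹ ∈ upper n F := by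
    intro b hb u hu
    have hbt : ∀ i j : Fin n, j < i → (b : Matrix (Fin n) (Fin n) F) i j = 0 := fun i j hij => hb hij
    have hbi : ∀ i j : Fin n, j < i → ((b⁻¹ : Matrix.SpecialLinearGroup (Fin n) F) : Matrix (Fin n) (Fin n) F) i j = 0 := by
      intro i j hij
      have h1 : Matrix.SpecialLinearGroup.toGL (b⁻¹) ∈ Cfsg.upperTriangularGL n F := by
        rw [map_inv]
        exact inv_mem hb
      exact h1 hij
    have hu' := mem_upper.1 hu
    have hub : ∀ i j : Fin n, j ≤ i → ((b * u : Matrix.SpecialLinearGroup (Fin n) F) : Matrix (Fin n) (Fin n) F) i j =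
        (b : Matrix (Fin n) (Fin n) F) i j := by
      intro i j hij
      rw [Matrix.SpecialLinearGroup.coe_mul, mul_apply, Finset.sum_eq_single j]
      · rw [hu' j j le_rfl, if_pos rfl, mul_one]
      · intro k _ hk
        rcases lt_or_gt_of_ne hk with h5 | h5
        · rw [hbt i k (lt_of_lt_of_le h5 hij), zero_mul]
        · rw [hu' k j h5.le, if_neg hk, mul_zero]
      · intro h5
        exact absurd (Finset.mem_univ _) h5
    rw [mem_upper]
    intro i j hij
    have h1 : (1 : Matrix (Fin n) (Fin n) F) i j = if i = j then 1 else 0 := one_apply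
    have e1 : ((b * u * b⁻¹ : Matrix.SpecialLinearGroup (Fin n) F) : Matrix (Fin n) (Fin n) F) i j =
        ∑ k, ((b * u : Matrix.SpecialLinearGroup (Fin n) F) : Matrix (Fin n) (Fin n) F) i k *
          ((b⁻¹ : Matrix.SpecialLinearGroup (Fin n) F) : Matrix (Fin n) (Fin n) F) k j := by
      rw [Matrix.SpecialLinearGroup.coe_mul (b * u), mul_apply]
    have e2 : (1 : Matrix (Fin n) (Fin n) F) i j =
        ∑ k, (b : Matrix (Fin n) (Fin n) F) i k *
          ((b⁻¹ : Matrix.SpecialLinearGroup (Fin n) F) : Matrix (Fin n) (Fin n) F) k j := by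
      rw [← Matrix.SpecialLinearGroup.coe_one, ← mul_inv_cancel b, Matrix.SpecialLinearGroup.coe_mul, mul_apply]
    rw [← h1, e1, e2]
    apply Finset.sum_congr rfl
    intro k _
    rcases le_or_gt k i with h5 | h5
    · rw [hub i k h5]
    · rw [hbi k j (lt_of_le_of_lt hij h5), mul_zero, mul_zero]
  have key2 : ∀ b : Matrix.SpecialLinearGroup (Fin n) F, Matrix.SpecialLinearGroup.toGL b ∈ Cfsg.upperTriangularGL n F →
      ∀ y ∈ (upper n F).map pr, pr b * y * (pr b)⁻¹ ∈ (upper n F).map pr := by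
    rintro b hb _ ⟨u, hu, rfl⟩
    exact ⟨_, key b hb u hu, by rw [map_mul, map_mul, map_inv]⟩
  rw [Subgroup.mem_normalizer_iff]
  intro y
  refine ⟨fun hy => key2 b hb y hy, fun hy => ?_⟩
  have hbi : Matrix.SpecialLinearGroup.toGL (b⁻¹) ∈ Cfsg.upperTriangularGL n F := by
    rw [map_inv]
    exact inv_mem hb
  have h1 := key2 b⁻¹ hbi _ hy
  rw [map_inv, inv_inv] at h1
  have h2 : (pr b)⁻¹ * (pr b * y * (pr b)⁻¹) * pr b = y := by group
  rwa [h2] at h1

/-- the standard case -/
theorem fix_std [Fintype F] {r : ℕ} [Fact r.Prime] [CharP F r] {A : GL (Fin n) F} {σ : F ≃+* F}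
    (h : ∀ m ∈ (upper n F).map pr, lift (nf A σ) m ∈ (upper n F).map pr)
    {M : Subgroup (Matrix.ProjectiveSpecialLinearGroup (Fin n) F)}
    (hM : Subgroup.normalizer (((upper n F).map pr : Subgroup (Matrix.ProjectiveSpecialLinearGroup (Fin n) F)) :
      Set (Matrix.ProjectiveSpecialLinearGroup (Fin n) F)) ≤ M) : ∀ m ∈ M, lift (nf A σ) m ∈ M := by
  have hA := nf_up (upper_of_map (r := r) h)
  intro m hm
  obtain ⟨s, rfl⟩ := pr_surjective m
  obtain ⟨b, b', h1, h2, h3⟩ := nf_dbl hA σ s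
  rw [lift_pr, h3, map_mul, map_mul]
  exact mul_mem (mul_mem (hM (up_le_norm h1)) hm) (hM (up_le_norm h2))

theorem conj_nf (g : Matrix.SpecialLinearGroup (Fin n) F) (A : GL (Fin n) F) (σ : F ≃+* F) :
    MulAut.congr (MulAut.conj (pr g)) (lift (nf A σ)) = lift (nf (Matrix.SpecialLinearGroup.toGL g * A *
      (Matrix.SpecialLinearGroup.toGL (fld σ g))⁻¹) σ) := by
  apply MulEquiv.ext
  intro x
  obtain ⟨s, rfl⟩ := pr_surjective x
  have h0 : pr s = MulAut.conj (pr g) (pr (g⁻¹ * s * g)) := by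
    rw [MulAut.conj_apply, ← map_inv, ← map_mul, ← map_mul]
    congr 1
    group
  rw [lift_pr, h0, congr_ap, lift_pr, MulAut.conj_apply, ← map_inv, ← map_mul, ← map_mul]
  congr 1
  apply Matrix.SpecialLinearGroup.toGL_injective
  rw [toGL_nf, map_mul, map_mul, toGL_nf, map_mul, map_mul, map_mul, map_mul, map_inv, map_inv, map_inv]
  group

/-- **An automorphism without graph part which normalises a Sylow subgroup fixes all overgroups of the normaliser.** -/
theorem fix_over [Fintype F] {r : ℕ} [Fact r.Prime] [CharP F r] {A : GL (Fin n) F} {σ : F ≃+* F}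
    (S : Sylow r (Matrix.ProjectiveSpecialLinearGroup (Fin n) F))
    (hS : ∀ m ∈ (S : Subgroup (Matrix.ProjectiveSpecialLinearGroup (Fin n) F)), lift (cj A * fld σ) m ∈
      (S : Subgroup (Matrix.ProjectiveSpecialLinearGroup (Fin n) F)))
    {M : Subgroup (Matrix.ProjectiveSpecialLinearGroup (Fin n) F)}
    (hM : Subgroup.normalizer ((S : Subgroup (Matrix.ProjectiveSpecialLinearGroup (Fin n) F)) :
      Set (Matrix.ProjectiveSpecialLinearGroup (Fin n) F)) ≤ M) : ∀ m ∈ M, lift (cj A * fld σ) m ∈ M := by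
  obtain ⟨U, hU⟩ := exists_sylow (F := F) n r
  obtain ⟨x, hx⟩ := MulAction.exists_smul_eq (Matrix.ProjectiveSpecialLinearGroup (Fin n) F) S U
  obtain ⟨g, rfl⟩ := pr_surjective x
  refine fix_of_conj hx ?_ hM
  intro M' hM'
  show ∀ m ∈ M', MulAut.congr (MulAut.conj (pr g)) (lift (nf A σ)) m ∈ M'
  rw [conj_nf]
  rw [hU] at hM'
  refine fix_std (r := r) ?_ hM'
  intro m hm
  rw [← hU] at hm ⊢
  rw [← conj_nf, ← hx]
  rw [← hx] at hm
  obtain ⟨m', hm', rfl⟩ := hm
  refine ⟨lift (nf A σ) m', hS _ hm', ?_⟩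
  show pr g * lift (nf A σ) m' * (pr g)⁻¹ = MulAut.congr (MulAut.conj (pr g)) (lift (nf A σ)) (MulAut.conj (pr g) m')
  rw [congr_ap]
  rfl

/-- **`PSL_3(q)`** -/
theorem noswap_psl3 [Fintype F] (r : ℕ) [Fact r.Prime] [CharP F r] :
    NoSwap r (Matrix.ProjectiveSpecialLinearGroup (Fin 3) F) := by
  intro α h U hU M₁ M₂ h1 h2 hne _ _ hsw hsw'
  rcases Cfsg.Agent.ClassicalGeometry.AutPSL.Main.surj_three r (le_refl 3) α with ⟨A, σ, rfl⟩ | hc
  · exact hne (eq_of_fix_swap hsw hsw' (fix_over U hU h1.le) (fix_over U hU h2.le))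
  · exact psl3_corr h hc U hU

/-- **`PSL_4(3)`** -/
theorem noswap_psl4_three [Fintype F] (h3 : Fintype.card F = 3) (r : ℕ) [Fact r.Prime] [CharP F r] :
    NoSwap r (Matrix.ProjectiveSpecialLinearGroup (Fin 4) F) := by
  intro α h U hU M₁ M₂ h1 h2 hne _ _ hsw hsw'
  rcases Cfsg.Agent.ClassicalGeometry.AutPSL.Main.surj_three r (by norm_num : 3 ≤ 4) α with ⟨A, σ, rfl⟩ | hc
  · exact hne (eq_of_fix_swap hsw hsw' (fix_over U hU h1.le) (fix_over U hU h2.le))
  · exact psl4_three h3 h hc U hU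

end Cfsg.Agent.H272.Ccp
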